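import Cfsg.Agent.H162.CC.Tools3
import Cfsg.Agent.LieRecognition.ReeFinal
import Cfsg.Agent.ChevalleyStructure.Ree.Simple
import Cfsg.Agent.ChevStructure.FieldMap
import Cfsg.Agent.TwoFusion.SLTwoFacts
import Cfsg.Agent.ClassicalGeometry.PSL2Basic

/-!
# S3828, task REE-1 (helper778): `CRow p (²G₂(q))` for every prime `p` not dividing `q² - q + 1`
-/

set_option autoImplicit false
set_option linter.unusedSectionVars false

namespace Cfsg.Agent.H778.CRowRee

open Subgroup Cfsg Cfsg.Lie Cfsg.Agent Cfsg.Agent.H162.CCR Cfsg.Agent.LieRecognition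
open Cfsg.Agent.Lib.Cores

/-! ### cores of direct products -/

theorem pCore_prod_eq_bot {p : ℕ} [hp : Fact p.Prime] {A L : Type*} [Group A] [Group L] [Finite A] [Finite L]
    (hA : ¬ p ∣ Nat.card A) (hL : pCore p L = ⊥) : pCore p (A × L) = ⊥ := by
  rw [eq_bot_iff]
  intro x hx
  have hP : IsPGroup p (pCore p (A × L)) := pCore_isPGroup p
  have h2 : x.2 = 1 := by
    have hn : ((pCore p (A × L)).map (MonoidHom.snd A L)).Normal :=
      Subgroup.Normal.map inferInstance _ Prod.snd_surjective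
    have h3 : (pCore p (A × L)).map (MonoidHom.snd A L) ≤ pCore p L := le_pCore hn (hP.map _)
    rw [hL] at h3
    have h4 := h3 ⟨x, hx, rfl⟩
    simpa using h4
  have h1 : x.1 = 1 := by
    obtain ⟨k, hk⟩ := hP ⟨x, hx⟩
    have hk' : x ^ p ^ k = 1 := congrArg Subtype.val hk
    have h5 : x.1 ^ p ^ k = 1 := by rw [← Prod.pow_fst, hk', Prod.fst_one]
    have h6 : orderOf x.1 ∣ p ^ k := orderOf_dvd_of_pow_eq_one h5
    have h7 : orderOf x.1 ∣ Nat.card A := orderOf_dvd_natCard _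
    have h8 : (p ^ k).Coprime (Nat.card A) := Nat.Coprime.pow_left k ((Nat.Prime.coprime_iff_not_dvd hp.out).2 hA)
    have h9 : orderOf x.1 = 1 := Nat.eq_one_of_dvd_coprimes h8 h6 h7
    exact orderOf_eq_one_iff.1 h9
  rw [Subgroup.mem_bot]
  exact Prod.ext h1 h2

theorem pCore_eq_bot_of_equiv {p : ℕ} {H K : Type*} [Group H] [Group K] (e : H ≃* K) (h : pCore p K = ⊥) :
    pCore p H = ⊥ := by
  rw [eq_bot_iff]
  intro x hx
  have h1 := pCore_of_equiv e hx
  rw [h, Subgroup.mem_bot] at h1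
  rw [Subgroup.mem_bot]
  exact e.injective (by rw [h1, map_one])

/-! ### numbers -/

/-- `|G| = |C| * (q² (q² - q + 1))` -/
theorem index_eq {q i : ℕ} (hq : 1 < q) (h : q * (q ^ 2 - 1) * i = q ^ 3 * (q - 1) * (q ^ 3 + 1)) :
    i = q ^ 2 * (q ^ 2 - q + 1) := by
  obtain ⟨r, rfl⟩ : ∃ r, q = r + 1 := ⟨q - 1, by omega⟩
  have e1 : (r + 1) ^ 2 - 1 = r * (r + 2) := by
    have : (r + 1) ^ 2 = r * (r + 2) + 1 := by ring
    omega
  have e2 : (r + 1) ^ 2 - (r + 1) + 1 = r ^ 2 + r + 1 := by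
    have : (r + 1) ^ 2 = (r ^ 2 + r) + (r + 1) := by ring
    omega
  have e3 : r + 1 - 1 = r := by omega
  rw [e1, e3] at h
  rw [e2]
  have hr : 0 < (r + 1) * (r * (r + 2)) := by
    have : 0 < r := by omega
    positivity
  apply Nat.eq_of_mul_eq_mul_left hr
  rw [h]
  ring

theorem not_comm_psl {F : Type*} [Field F] [Fintype F] (h3 : 3 < Fintype.card F) :
    ¬ IsMulCommutative (Matrix.ProjectiveSpecialLinearGroup (Fin 2) F) := by
  intro h
  have h1 := TwoFusion.SLTwoFacts.commutator_eq_top h3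
  have h2 := Subgroup.map_commutator (⊤ : Subgroup (Matrix.SpecialLinearGroup (Fin 2) F)) ⊤
    (QuotientGroup.mk' (center (Matrix.SpecialLinearGroup (Fin 2) F)))
  have h4 : ⁅(⊤ : Subgroup (Matrix.SpecialLinearGroup (Fin 2) F)), ⊤⁆ = ⊤ := h1
  have h6 : (⊤ : Subgroup (Matrix.SpecialLinearGroup (Fin 2) F)).map
      (QuotientGroup.mk' (center (Matrix.SpecialLinearGroup (Fin 2) F))) = ⊤ :=
    Subgroup.map_top_of_surjective _ (QuotientGroup.mk'_surjective _)
  rw [h4, h6] at h2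
  have h5 : ⁅(⊤ : Subgroup (Matrix.SpecialLinearGroup (Fin 2) F ⧸ center (Matrix.SpecialLinearGroup (Fin 2) F))),
      (⊤ : Subgroup (Matrix.SpecialLinearGroup (Fin 2) F ⧸ center (Matrix.SpecialLinearGroup (Fin 2) F)))⁆ = ⊥ := by
    rw [commutator_eq_bot_iff_le_centralizer]
    intro x _
    rw [mem_centralizer_iff]
    intro y _
    exact h.is_comm.comm y x
  rw [h5] at h2
  have := TwoFusion.SLTwoFacts.isSimpleGroup_psl h3
  exact bot_ne_top (α := Subgroup (Matrix.ProjectiveSpecialLinearGroup (Fin 2) F)) h2.symm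

section Abs

variable {K : Type*} [Field K] [Fintype K] {G : Type*} [Group G] [Finite G] {m : ℕ} {U : K → K → K → G} {h : Kˣ → G}
  {n : G} (D : ReeAbs.Data m U h n) (hK : Fintype.card K = 3 ^ (2 * m + 1))

include D

theorem not_comm (hperf : commutator G = ⊤) : ¬ IsMulCommutative G := by
  intro hc
  have h1 : commutator G = ⊥ := by
    rw [commutator_def, Subgroup.commutator_eq_bot_iff_le_centralizer]
    intro x _
    rw [Subgroup.mem_centralizer_iff]
    intro y _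
    exact hc.is_comm.comm y x
  have h2 : n ∈ (⊤ : Subgroup G) := Subgroup.mem_top n
  rw [← hperf, h1, Subgroup.mem_bot] at h2
  exact D.n_ne_one h2

include hK

/-- `p = 2` -/
theorem row_two (hperf : commutator G = ⊤) : CRow 2 G := by
  intro C hC c hc
  have hf3 : Fact (Nat.Prime 2) := ⟨Nat.prime_two⟩
  have hs := ChevalleyStructure.Ree.Simple.isSimple D hK hperf
  have hO := pCore_eq_bot_of_simple (not_comm D hperf) 2
  obtain ⟨P, hP⟩ := (hC.isPGroup_zpowers hc).exists_le_sylow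
  exact hC.sq_ne_one hO hc ((D.sylow_two hK (ReeFinal.card_of_data D hK) P).2 c (hP (Subgroup.mem_zpowers c)))

theorem card_centralizer : Nat.card (Subgroup.centralizer ({h (-1)} : Set G)) =
    3 ^ (2 * m + 1) * ((3 ^ (2 * m + 1)) ^ 2 - 1) := by
  obtain ⟨e⟩ := D.centralizer_iso hK
  rw [Nat.card_congr e.toEquiv, Nat.card_prod, Nat.card_congr Multiplicative.toAdd, Nat.card_zmod]
  have h1 := Cfsg.Agent.ClassicalGeometry.PSL2Basic.card_PSL2_gcd (F := K)
  have h2 : Nat.gcd 2 (Fintype.card K - 1) = 2 := by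
    apply Nat.gcd_eq_left
    have h3 : Odd (Fintype.card K) := by rw [hK]; exact Odd.pow (by decide)
    obtain ⟨j, hj⟩ := h3
    exact ⟨j, by omega⟩
  rw [h2, hK] at h1
  rw [mul_comm, h1]

theorem index_centralizer : (Subgroup.centralizer ({h (-1)} : Set G)).index =
    (3 ^ (2 * m + 1)) ^ 2 * ((3 ^ (2 * m + 1)) ^ 2 - 3 ^ (2 * m + 1) + 1) := by
  have h1 := Subgroup.card_mul_index (Subgroup.centralizer ({h (-1)} : Set G))
  rw [card_centralizer D hK, ReeFinal.card_of_data D hK] at h1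
  exact index_eq (Nat.one_lt_pow (by omega) (by norm_num)) h1

theorem centralizer_ne_top : Subgroup.centralizer ({h (-1)} : Set G) ≠ ⊤ := by
  intro h1
  have h2 := index_centralizer D hK
  rw [h1, Subgroup.index_top] at h2
  have h3 : 1 < (3 ^ (2 * m + 1)) ^ 2 := Nat.one_lt_pow (by norm_num) (Nat.one_lt_pow (by omega) (by norm_num))
  have h4 : 1 ≤ ((3 ^ (2 * m + 1)) ^ 2 - 3 ^ (2 * m + 1) + 1) := by omega
  nlinarith

theorem core_centralizer (hm : 1 ≤ m) {p : ℕ} [hp : Fact p.Prime] (hp2 : p ≠ 2) :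
    pCore p (Subgroup.centralizer ({h (-1)} : Set G)) = ⊥ := by
  obtain ⟨e⟩ := D.centralizer_iso hK
  have h3 : 3 < Fintype.card K := by
    rw [hK]
    calc 3 < 3 ^ 3 := by norm_num
      _ ≤ 3 ^ (2 * m + 1) := Nat.pow_le_pow_right (by norm_num) (by omega)
  have hs : IsSimpleGroup (Matrix.ProjectiveSpecialLinearGroup (Fin 2) K) :=
    Cfsg.Agent.TwoFusion.SLTwoFacts.isSimpleGroup_psl h3
  have hfin : Finite (Matrix.ProjectiveSpecialLinearGroup (Fin 2) K) := by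
    unfold Matrix.ProjectiveSpecialLinearGroup
    infer_instance
  refine pCore_eq_bot_of_equiv e (pCore_prod_eq_bot ?_ (pCore_eq_bot_of_simple (not_comm_psl h3) p))
  rw [Nat.card_congr Multiplicative.toAdd, Nat.card_zmod]
  intro h4
  exact hp2 ((Nat.prime_dvd_prime_iff_eq hp.out Nat.prime_two).1 h4)

/-- `p ≠ 2, 3` prime to `q² - q + 1` -/
theorem row_index (hm : 1 ≤ m) {p : ℕ} [hp : Fact p.Prime] (hp2 : p ≠ 2) (hp3 : p ≠ 3)
    (hpq : ¬ p ∣ (3 ^ (2 * m + 1)) ^ 2 - 3 ^ (2 * m + 1) + 1) : CRow p G := by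
  intro C hC
  refine hC.eq_one_of_index (centralizer_ne_top D hK) ?_ (core_centralizer D hK hm hp2)
  rw [index_centralizer D hK]
  intro h1
  rcases (Nat.Prime.dvd_mul hp.out).1 h1 with h2 | h2
  · have h3 := hp.out.dvd_of_dvd_pow (hp.out.dvd_of_dvd_pow h2)
    exact hp3 ((Nat.prime_dvd_prime_iff_eq hp.out Nat.prime_three).1 h3)
  · exact hpq h2

/-! ### `p = 3` -/

/-- the Sylow 3-subgroup -/
def UU : Subgroup G where
  carrier := {g | ∃ t u v, g = U t u v}
  one_mem' := ⟨0, 0, 0, D.U_zero.symm⟩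
  mul_mem' := by
    rintro _ _ ⟨t, u, v, rfl⟩ ⟨t', u', v', rfl⟩
    exact ⟨_, _, _, D.U_mul _ _ _ _ _ _⟩
  inv_mem' := by
    rintro _ ⟨t, u, v, rfl⟩
    exact ChevalleyStructure.Ree.Simple.U_inv D t u v

omit hK in
theorem U_inj {t u v t' u' v' : K} (h1 : U t u v = U t' u' v') : t = t' ∧ u = u' ∧ v = v' := by
  have h2 : U t u v * h 1 = U t' u' v' * h 1 := by rw [h1]
  obtain ⟨a, b, c, -⟩ := D.inj₁ _ _ _ _ _ _ _ _ h2
  exact ⟨a, b, c⟩

theorem card_UU : Nat.card (UU D) = (3 ^ (2 * m + 1)) ^ 3 := by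
  let f : K × K × K → UU D := fun x => ⟨U x.1 x.2.1 x.2.2, _, _, _, rfl⟩
  have hf : Function.Bijective f := by
    constructor
    · rintro ⟨t, u, v⟩ ⟨t', u', v'⟩ h1
      obtain ⟨h2, h3, h4⟩ := U_inj D (congrArg Subtype.val h1)
      simp only at h2 h3 h4
      rw [h2, h3, h4]
    · rintro ⟨_, t, u, v, rfl⟩
      exact ⟨(t, u, v), rfl⟩
  rw [← Nat.card_congr (Equiv.ofBijective f hf), Nat.card_prod, Nat.card_prod, Nat.card_eq_fintype_card, hK]
  ring

theorem index_UU : ¬ 3 ∣ (UU D).index := by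
  have h1 := Subgroup.card_mul_index (UU D)
  rw [card_UU D hK, ReeFinal.card_of_data D hK, mul_assoc] at h1
  have h2 := Nat.eq_of_mul_eq_mul_left (by positivity) h1
  rw [h2]
  intro h3
  have h4 : 3 ∣ 3 ^ (2 * m + 1) := dvd_pow_self 3 (by omega)
  have h5 : 1 < 3 ^ (2 * m + 1) := Nat.one_lt_pow (by omega) (by norm_num)
  rcases (Nat.Prime.dvd_mul Nat.prime_three).1 h3 with h6 | h6
  · omega
  · have h7 : 3 ∣ (3 ^ (2 * m + 1)) ^ 3 := Dvd.dvd.pow h4 (by norm_num)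
    omega

theorem isPGroup_UU : IsPGroup 3 (UU D) := IsPGroup.of_card (n := (2 * m + 1) * 3) (by rw [card_UU D hK, ← pow_mul])

section Three

variable {C : Set G} (hC : Min 3 C)

include hC

/-- `U 0 u v ∈ C` implies `u = 0` -/
theorem u_eq_zero (hm : 1 ≤ m) {u v : K} (h1 : U 0 u v ∈ C) : u = 0 := by
  by_contra hu
  have e0 : (0 : K) ^ 3 ^ (m + 1) = 0 := zero_pow (by positivity)
  have h2 : U (-(v / u)) 0 0 * U 0 u v = U 0 u 0 * U (-(v / u)) 0 0 := by
    rw [D.U_mul, D.U_mul]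
    rw [e0]
    congr 1
    · ring
    · ring
    · field_simp
      ring
  have h3 : U (-(v / u)) 0 0 * U 0 u v * (U (-(v / u)) 0 0)⁻¹ ∈ C := hC.conj _ _ h1
  rw [h2, mul_inv_cancel_right] at h3
  have h4 : U 0 u 0 ∈ Subgroup.centralizer ({h (-1)} : Set G) := by
    rw [Subgroup.mem_centralizer_singleton_iff, D.inv_mul_U, neg_zero]
  have h5 := hC.eq_one_of_mem (centralizer_ne_top D hK) (core_centralizer D hK hm (by norm_num)) h3 h4
  rw [← D.U_zero] at h5
  exact hu (U_inj D h5).2.1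

/-- `U t u v ∈ C` implies `t = 0` -/
theorem t_eq_zero (hm : 1 ≤ m) {t u v : K} (h1 : U t u v ∈ C) : t = 0 := by
  by_contra ht
  -- a torus element
  obtain ⟨a, ha⟩ : ∃ a : Kˣ, ((a : K) ^ 3 ^ (m + 1)) ^ 3 ^ (m + 1) ≠ (a : K) ^ 3 ^ (m + 1) := by
    by_contra hall
    push Not at hall
    obtain ⟨g, hg⟩ := IsCyclic.exists_generator (α := Kˣ)
    have hg1 := hall g
    rw [← pow_mul, ← pow_add] at hg1
    have e1 : m + 1 + (m + 1) = 2 * m + 1 + 1 := by ring
    rw [e1, pow_succ 3 (2 * m + 1), pow_mul, ← hK, FiniteField.pow_card, pow_succ 3 m, pow_mul] at hg1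
    have hchar := ReeAbs.charP_three hK
    have h3 : (g : K) = (g : K) ^ 3 ^ m := frobenius_inj K 3 hg1
    have h4 : g ^ (3 ^ m - 1) = 1 := by
      have h5 : g * g ^ (3 ^ m - 1) = g * 1 := by
        rw [← pow_succ', mul_one, Nat.sub_add_cancel (Nat.one_le_pow _ _ (by norm_num))]
        exact Units.ext (by rw [Units.val_pow_eq_pow_val]; exact h3.symm)
      exact mul_left_cancel h5
    have h5 : orderOf g = 3 ^ (2 * m + 1) - 1 := by
      rw [orderOf_eq_card_of_forall_mem_zpowers hg, Nat.card_units, Nat.card_eq_fintype_card, hK]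
    have h6 := orderOf_dvd_of_pow_eq_one h4
    rw [h5] at h6
    have h7 : 3 ≤ 3 ^ m := by
      calc 3 = 3 ^ 1 := by norm_num
        _ ≤ 3 ^ m := Nat.pow_le_pow_right (by norm_num) hm
    have h8 : 3 ^ m < 3 ^ (2 * m + 1) := Nat.pow_lt_pow_right (by norm_num) (by omega)
    have h9 := Nat.le_of_dvd (by omega) h6
    omega
  -- the conjugate
  obtain ⟨u', v', h2⟩ : ∃ u' v', U ((a : K) ^ 3 ^ (m + 1) * t) u' v' ∈ C := by
    have h3 : h a * U t u v * (h a)⁻¹ ∈ C := hC.conj _ _ h1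
    rw [D.h_U, mul_inv_cancel_right] at h3
    exact ⟨_, _, h3⟩
  set κ := (a : K) ^ 3 ^ (m + 1) with hκ
  -- the commutator
  have h3 := hC.comm _ h1 _ h2
  have h4 : (U t u v)⁻¹ * (U (κ * t) u' v')⁻¹ * U t u v * U (κ * t) u' v' ∈ UU D := by
    have k1 : U t u v ∈ UU D := ⟨_, _, _, rfl⟩
    have k2 : U (κ * t) u' v' ∈ UU D := ⟨_, _, _, rfl⟩
    exact mul_mem (mul_mem (mul_mem (inv_mem k1) (inv_mem k2)) k1) k2
  obtain ⟨x, y, z, h5⟩ := h4
  have h6 : U t u v * U (κ * t) u' v' = U (κ * t) u' v' * U t u v * U x y z := by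
    rw [← h5]
    group
  rw [D.U_mul, D.U_mul, D.U_mul] at h6
  obtain ⟨h7, h8, -⟩ := U_inj D h6
  have hx : x = 0 := by
    have : t + κ * t = κ * t + t + x := h7
    linear_combination -this
  rw [hx] at h5 h8
  rw [h5] at h3
  have hy := u_eq_zero D hK hC hm h3
  rw [hy, zero_pow (by positivity)] at h8
  have h9 : t * t ^ 3 ^ (m + 1) * (κ - κ ^ 3 ^ (m + 1)) = 0 := by
    rw [mul_pow] at h8
    linear_combination h8
  rcases mul_eq_zero.1 h9 with h10 | h10
  · rcases mul_eq_zero.1 h10 with h11 | h11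
    · exact ht h11
    · exact ht (pow_eq_zero_iff (by positivity) |>.1 h11)
  · exact ha (sub_eq_zero.1 h10).symm

/-- a non-trivial element of `C` -/
theorem one_mem_C (hm : 1 ≤ m) {c : G} (hc : c ∈ C) (hc1 : c ≠ 1) : U 0 0 1 ∈ C := by
  have hf3 : Fact (Nat.Prime 3) := ⟨Nat.prime_three⟩
  obtain ⟨g, hg⟩ := hC.exists_conj_mem (index_UU D hK) hc
  obtain ⟨t, u, v, h1⟩ := hg
  have h2 : U t u v ∈ C := h1 ▸ hC.conj g c hc
  have ht := t_eq_zero D hK hC hm h2
  subst ht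
  have hu := u_eq_zero D hK hC hm h2
  subst hu
  have hv : v ≠ 0 := by
    rintro rfl
    rw [D.U_zero] at h1
    exact hc1 (by simpa using h1)
  -- the torus is transitive
  obtain ⟨b, hb⟩ : ∃ b : Kˣ, ((b : Kˣ) : K) * v = 1 :=
    ⟨(Units.mk0 v hv)⁻¹, by rw [Units.val_inv_eq_inv_val, Units.val_mk0, inv_mul_cancel₀ hv]⟩
  have h3 : b ^ 3 ^ (2 * m + 1) = b := ReeAbs.units_pow_card hK b
  have h4 : (b ^ (2 * 3 ^ m) * b⁻¹) ^ (2 * 3 ^ (m + 1) + 3) = b := by
    rw [mul_pow, inv_pow b, ← pow_mul, mul_inv_eq_iff_eq_mul]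
    have e1 : 2 * 3 ^ m * (2 * 3 ^ (m + 1) + 3) = 3 ^ (2 * m + 1) * 4 + 2 * 3 ^ (m + 1) := by
      have : 3 ^ (2 * m + 1) = 3 ^ m * 3 ^ (m + 1) := by rw [← pow_add]; congr 1; ring
      rw [this, pow_succ 3 m]
      ring
    rw [e1, pow_add, pow_mul, h3]
    have e2 : 2 * 3 ^ (m + 1) + 3 = 3 + 2 * 3 ^ (m + 1) := by ring
    rw [e2, pow_add b 3, ← mul_assoc, ← pow_succ']
  have h5 : h (b ^ (2 * 3 ^ m) * b⁻¹) * U 0 0 v * (h (b ^ (2 * 3 ^ m) * b⁻¹))⁻¹ ∈ C := hC.conj _ _ h2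
  rw [D.h_U, mul_inv_cancel_right, ← Units.val_pow_eq_pow_val (b ^ (2 * 3 ^ m) * b⁻¹) (2 * 3 ^ (m + 1) + 3), h4,
    mul_zero, mul_zero] at h5
  rwa [hb] at h5

end Three

/-- `p = 3` -/
theorem row_three (hm : 1 ≤ m) (hperf : commutator G = ⊤) (R : Subgroup G) (hR : R ≠ ⊤) (hR1 : U 0 0 1 ∈ R)
    (hR2 : n ∈ R) : CRow 3 G := by
  intro C hC c hc
  by_contra hc1
  have hf3 : Fact (Nat.Prime 3) := ⟨Nat.prime_three⟩
  have hs := ChevalleyStructure.Ree.Simple.isSimple D hK hperf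
  have hO := pCore_eq_bot_of_simple (not_comm D hperf) 3
  have h1 := one_mem_C D hK hC hm hc hc1
  have h2 : U 0 0 1 ≠ 1 := by
    intro h3
    rw [← D.U_zero] at h3
    exact one_ne_zero (U_inj D h3).2.2
  let P : Sylow 3 G := (isPGroup_UU D hK).toSylow (index_UU D hK)
  have hP : (P : Subgroup G) = UU D := IsPGroup.toSylow_coe _ _
  have h3 : U 0 0 1 ∈ (P : Subgroup G) := by rw [hP]; exact ⟨_, _, _, rfl⟩
  have h4 := hC.le_M hO h1 h2 h3 hR hR1 hR2
  have h5 : n * U 0 0 1 * n⁻¹ ∈ W C (P : Subgroup G) := (Subgroup.mem_normalizer_iff.1 h4 _).1 (mem_W h1 h3)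
  have h6 := W_le h5
  rw [hP] at h6
  obtain ⟨t, u, v, h7⟩ := h6
  have h8 : U 0 0 0 * h 1 * n * U 0 0 1 = U t u v * h 1 * n * U 0 0 0 := by
    rw [D.U_zero, D.h_one, ← h7]
    group
  exact one_ne_zero (D.inj₂ _ _ _ _ _ _ _ _ _ _ _ _ _ _ h8).2.2.2.2.2.2

end Abs

/-! ### The subfield subgroup -/

section Concrete

open Cfsg.Agent.ChevalleyStructure.Ree.Gens Cfsg.Agent.ChevalleyStructure.Ree.Checks

variable {K : Type*} [Field K] [Fintype K] {m : ℕ}

theorem map_wU {L : Type*} [Field L] (φ : K →+* L) (e : ℕ) (t u v : K) :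
    ((wU e t u v : GL chevG2.Idx K) : Matrix chevG2.Idx chevG2.Idx K).map φ =
      ((wU e (φ t) (φ u) (φ v) : GL chevG2.Idx L) : Matrix chevG2.Idx chevG2.Idx L) := by
  rw [coe_wU, coe_wU]
  refine (Cfsg.Agent.ChevStructure.FieldMap.wordMat_map chevG2 φ _).trans ?_
  congr 1
  simp [reeWordU, map_pow, map_add]

theorem map_nMat {L : Type*} [Field L] (φ : K →+* L) : (nMat K).map φ = nMat L := by
  ext i j
  rcases i with i | i <;> rcases j with j | j
  · simp only [Matrix.map_apply, nMat, Matrix.of_apply]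
    split_ifs <;> simp
  · simp [nMat]
  · simp [nMat]
  · simp only [Matrix.map_apply, nMat, Matrix.of_apply]
    split_ifs <;> simp

/-- the fixed points of an endomorphism of the field -/
def fixG (φ : K →+* K) (m : ℕ) : Subgroup ↥(twistedG2 K (3 ^ m)) :=
  MonoidHom.eqLocus ((Matrix.GeneralLinearGroup.map φ).comp (twistedG2 K (3 ^ m)).subtype)
    (twistedG2 K (3 ^ m)).subtype

theorem mem_fixG {φ : K →+* K} {g : ↥(twistedG2 K (3 ^ m))} : g ∈ fixG φ m ↔
    ((g : GL chevG2.Idx K) : Matrix chevG2.Idx chevG2.Idx K).map φ =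
      ((g : GL chevG2.Idx K) : Matrix chevG2.Idx chevG2.Idx K) := by
  constructor
  · intro h
    have h1 : Matrix.GeneralLinearGroup.map φ (g : GL chevG2.Idx K) = g := h
    exact congrArg (fun x : GL chevG2.Idx K => (x : Matrix chevG2.Idx chevG2.Idx K)) h1
  · intro h
    show Matrix.GeneralLinearGroup.map φ (g : GL chevG2.Idx K) = g
    exact Units.ext h

/-- **REE-1**: `CRow p (²G₂(q))` for every prime `p` not dividing `q² - q + 1`. -/
theorem crow_ree_easy (hm : 1 ≤ m) (hK : Fintype.card K = 3 ^ (2 * m + 1)) (p : ℕ) [hp : Fact p.Prime]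
    (hpq : ¬ p ∣ (3 ^ (2 * m + 1)) ^ 2 - 3 ^ (2 * m + 1) + 1) : CRow p ↥(twistedG2 K (3 ^ m)) := by
  have D := ReeFinal.data hK
  have hperf := ChevalleyStructure.Ree.Perfect.commutator_eq_top hK hm
  have hfin : Finite ↥(twistedG2 K (3 ^ m)) := inferInstance
  by_cases hp2 : p = 2
  · subst hp2
    exact row_two D hK hperf
  by_cases hp3 : p = 3
  swap
  · exact row_index D hK hm hp2 hp3 hpq
  subst hp3
  have hchar := ReeAbs.charP_three hK
  refine row_three D hK hm hperf (fixG (frobenius K 3) m) ?_ ?_ ?_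
  · intro htop
    -- a generator of the multiplicative group
    obtain ⟨g, hg⟩ := IsCyclic.exists_generator (α := Kˣ)
    have h1 : ReeData.U m (g : K) 0 0 ∈ fixG (frobenius K 3) m := by rw [htop]; trivial
    rw [mem_fixG] at h1
    have h2 : ((wU (3 ^ m) (frobenius K 3 g) (frobenius K 3 0) (frobenius K 3 0) : GL chevG2.Idx K) :
        Matrix chevG2.Idx chevG2.Idx K) = ((wU (3 ^ m) (g : K) 0 0 : GL chevG2.Idx K) :
        Matrix chevG2.Idx chevG2.Idx K) := by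
      rw [← map_wU]
      exact h1
    have h3 : ReeData.U m (frobenius K 3 g) (frobenius K 3 0) (frobenius K 3 0) = ReeData.U m (g : K) 0 0 :=
      Subtype.ext (Units.ext h2)
    have h4 := (U_inj D h3).1
    rw [frobenius_def] at h4
    have h5 : g ^ 2 = 1 := by
      have h6 : g * g ^ 2 = g * 1 := by
        rw [← pow_succ', mul_one]
        exact Units.ext (by rw [Units.val_pow_eq_pow_val]; exact h4)
      exact mul_left_cancel h6
    have h6 : orderOf g = 3 ^ (2 * m + 1) - 1 := by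
      rw [orderOf_eq_card_of_forall_mem_zpowers hg, Nat.card_units, Nat.card_eq_fintype_card, hK]
    have h7 := Nat.le_of_dvd (by norm_num) (orderOf_dvd_of_pow_eq_one h5)
    have h8 : 3 ^ 3 ≤ 3 ^ (2 * m + 1) := Nat.pow_le_pow_right (by norm_num) (by omega)
    omega
  · rw [mem_fixG]
    show ((wU (3 ^ m) (0 : K) 0 1 : GL chevG2.Idx K) : Matrix chevG2.Idx chevG2.Idx K).map _ = _
    rw [map_wU, map_zero, map_one]
    rfl
  · rw [mem_fixG]
    exact map_nMat _

/-- The same for groups isomorphic to a small Ree group. -/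
theorem crow_ree_easy_iso {G : Type*} [Group G] (h : Lie.IsoRee G) : ∃ (K : Type) (_ : Field K) (_ : Fintype K) (m : ℕ),
    1 ≤ m ∧ Fintype.card K = 3 ^ (2 * m + 1) ∧ Nonempty (G ≃* twistedG2 K (3 ^ m)) ∧
      ∀ (p : ℕ) [Fact p.Prime], ¬ p ∣ (3 ^ (2 * m + 1)) ^ 2 - 3 ^ (2 * m + 1) + 1 → CRow p G := by
  obtain ⟨K, _, _, m, hm, hK, ⟨e⟩⟩ := h
  exact ⟨K, _, _, m, hm, hK, ⟨e⟩, fun p _ hp => CRow.of_equiv e (crow_ree_easy hm hK p hp)⟩

end Concrete

end Cfsg.Agent.H778.CRowRee
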