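import Cfsg.Agent.H802.FusSat

/-!
# The Heisenberg group over the field with seven elements and its exotic fusion system (helper778)

`Hs`: triples `(x, y, z)` over `ZMod 7` with `(v, a) (w, b) = (v + w, a + b + 4 ω(v, w))`.
`sys`: the fusion system over `Hs` of all injective homomorphisms which preserve the
invariant `Q a b = N(b.z a.v - a.z b.v) ^ 2` of the commuting pairs `a, b`.
-/

set_option autoImplicit false

namespace Cfsg.Agent.H778.Seven

open Cfsg Cfsg.FusionSystem

/-- The Heisenberg group over `ZMod 7`, in symmetric coordinates. -/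
@[ext] structure Hs where
  x : ZMod 7
  y : ZMod 7
  z : ZMod 7

/-- The alternating form. -/
def om (a b : Hs) : ZMod 7 := a.x * b.y - a.y * b.x

instance instMulHs : Mul Hs := ⟨fun a b => ⟨a.x + b.x, a.y + b.y, a.z + b.z + 4 * (a.x * b.y - a.y * b.x)⟩⟩
instance instOneHs : One Hs := ⟨⟨0, 0, 0⟩⟩
instance instInvHs : Inv Hs := ⟨fun a => ⟨-a.x, -a.y, -a.z⟩⟩

@[simp] theorem mul_x (a b : Hs) : (a * b).x = a.x + b.x := rfl
@[simp] theorem mul_y (a b : Hs) : (a * b).y = a.y + b.y := rfl
@[simp] theorem mul_z (a b : Hs) : (a * b).z = a.z + b.z + 4 * (a.x * b.y - a.y * b.x) := rfl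
@[simp] theorem one_x : (1 : Hs).x = 0 := rfl
@[simp] theorem one_y : (1 : Hs).y = 0 := rfl
@[simp] theorem one_z : (1 : Hs).z = 0 := rfl
@[simp] theorem inv_x (a : Hs) : (a⁻¹).x = -a.x := rfl
@[simp] theorem inv_y (a : Hs) : (a⁻¹).y = -a.y := rfl
@[simp] theorem inv_z (a : Hs) : (a⁻¹).z = -a.z := rfl

instance instGroupHs : Group Hs :=
  Group.ofLeftAxioms
    (fun a b c => by ext <;> simp <;> ring)
    (fun a => by ext <;> simp)
    (fun a => by ext <;> simp; ring)

/-- `Hs` as a product. -/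
def eqvProd : Hs ≃ ZMod 7 × ZMod 7 × ZMod 7 where
  toFun a := (a.x, a.y, a.z)
  invFun t := ⟨t.1, t.2.1, t.2.2⟩
  left_inv _ := rfl
  right_inv _ := rfl

instance instFiniteHs : Finite Hs := Finite.of_equiv _ eqvProd.symm

theorem card_Hs : Nat.card Hs = 343 := by
  rw [Nat.card_congr eqvProd, Nat.card_prod, Nat.card_prod, Nat.card_zmod]

theorem eight : (8 : ZMod 7) = 1 := by decide

theorem commute_iff (a b : Hs) : a * b = b * a ↔ a.x * b.y - a.y * b.x = 0 := by
  constructor
  · intro h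
    have h1 := congrArg Hs.z h
    simp only [mul_z] at h1
    have h2 : (8 : ZMod 7) * (a.x * b.y - a.y * b.x) = 0 := by linear_combination h1
    rwa [eight, one_mul] at h2
  · intro h
    have h2 : b.x * a.y - b.y * a.x = 0 := by linear_combination -h
    ext
    · simp [add_comm]
    · simp [add_comm]
    · simp only [mul_z, h, h2]; ring

theorem conj_eq (g a : Hs) : g * a * g⁻¹ = ⟨a.x, a.y, a.z + (g.x * a.y - g.y * a.x)⟩ := by
  ext
  · simp
  · simp
  · simp only [mul_z, mul_x, mul_y, inv_x, inv_y, inv_z]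
    have : a.z + (g.x * a.y - g.y * a.x) = a.z + (8 : ZMod 7) * (g.x * a.y - g.y * a.x) := by
      rw [eight, one_mul]
    rw [this]; ring

theorem pow_eq (a : Hs) (n : ℕ) : a ^ n = ⟨n * a.x, n * a.y, n * a.z⟩ := by
  induction n with
  | zero => ext <;> simp
  | succ n ih =>
    rw [pow_succ, ih]
    ext
    · simp; ring
    · simp; ring
    · simp; ring

theorem pow_seven (a : Hs) : a ^ 7 = 1 := by
  rw [pow_eq]
  have : ((7 : ℕ) : ZMod 7) = 0 := by decide
  rw [this]
  ext <;> simp

/-- The invariant of a pair. -/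
def Qi (a b : Hs) : ZMod 7 :=
  ((b.z * a.x - a.z * b.x) ^ 2 + (b.z * a.y - a.z * b.y) ^ 2) ^ 2

theorem Qi_pow (a : Hs) (m n : ℕ) : Qi (a ^ m) (a ^ n) = 0 := by
  rw [pow_eq, pow_eq]
  unfold Qi
  ring

theorem isPGroup_Hs : IsPGroup 7 Hs := IsPGroup.of_card (n := 3) (by rw [card_Hs]; norm_num)

/-- The condition on the maps. -/
def Good {P : Subgroup Hs} (φ : P →* Hs) : Prop :=
  ∀ a b : P, a * b = b * a → Qi (φ a) (φ b) = Qi a b

theorem Qi_conj (g a b : Hs) (h : a.x * b.y - a.y * b.x = 0) :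
    Qi (g * a * g⁻¹) (g * b * g⁻¹) = Qi a b := by
  rw [conj_eq, conj_eq]
  unfold Qi
  simp only
  have e1 : (b.z + (g.x * b.y - g.y * b.x)) * a.x - (a.z + (g.x * a.y - g.y * a.x)) * b.x =
      b.z * a.x - a.z * b.x + g.x * (a.x * b.y - a.y * b.x) := by ring
  have e2 : (b.z + (g.x * b.y - g.y * b.x)) * a.y - (a.z + (g.x * a.y - g.y * a.x)) * b.y =
      b.z * a.y - a.z * b.y + g.y * (a.x * b.y - a.y * b.x) := by ring
  rw [e1, e2, h]
  ring

/-- **The fusion system.** -/
def sys : FusionSystem (⊤ : Subgroup Hs) where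
  Hom P := {φ | Function.Injective φ ∧ Good φ}
  le_of_mem _ := ⟨le_top, fun _ => Subgroup.mem_top _⟩
  injective_of_mem h := h.1
  conj_mem := by
    intro P g _ _
    refine ⟨?_, ?_⟩
    · intro a b h
      have h1 : g * (a : Hs) * g⁻¹ = g * b * g⁻¹ := h
      exact Subtype.ext (mul_left_cancel (mul_right_cancel h1))
    · intro a b h
      have h1 : (a : Hs) * b = b * a := congrArg Subtype.val h
      exact Qi_conj g a b ((commute_iff _ _).1 h1)
  comp_mem := by
    rintro P Q φ ψ ⟨hφ, gφ⟩ ⟨hψ, gψ⟩ h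
    refine ⟨?_, ?_⟩
    · intro a b hab
      have h1 := hψ hab
      exact hφ (congrArg Subtype.val h1)
    · intro a b hab
      have h1 : (φ.codRestrict Q h) a * (φ.codRestrict Q h) b =
          (φ.codRestrict Q h) b * (φ.codRestrict Q h) a := by
        rw [← map_mul, hab, map_mul]
      have h2 := gψ _ _ h1
      rw [MonoidHom.comp_apply, MonoidHom.comp_apply, h2]
      exact gφ a b hab
  inv_mem := by
    rintro P φ ⟨hφ, gφ⟩
    let e := MonoidHom.ofInjective hφ
    have he : ∀ a : P, ((e a : φ.range) : Hs) = φ a := fun a => rfl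
    refine ⟨P.subtype.comp e.symm.toMonoidHom, ⟨?_, ?_⟩, ?_⟩
    · intro a b hab
      exact e.symm.injective (Subtype.ext hab)
    · intro a b hab
      have h1 : e.symm a * e.symm b = e.symm b * e.symm a := by
        rw [← map_mul, hab, map_mul]
      have h2 := gφ _ _ h1
      have h3 : ∀ c : φ.range, φ (e.symm c) = (c : Hs) := fun c => by
        rw [← he, e.apply_symm_apply]
      rw [h3, h3] at h2
      exact h2.symm
    · intro x
      have h1 : (⟨φ x, ⟨x, rfl⟩⟩ : φ.range) = e x := rfl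
      show ((e.symm ⟨φ x, ⟨x, rfl⟩⟩ : P) : Hs) = x
      rw [h1, e.symm_apply_apply]

theorem mem_sys {P : Subgroup Hs} {φ : P →* Hs} :
    φ ∈ sys.Hom P ↔ Function.Injective φ ∧ Good φ := Iff.rfl

/-! ### Affine automorphisms -/

/-- The endomorphism with matrix `a, b; c, d` and functional `l, m`. -/
def lin (a b c d l m : ZMod 7) : Hs →* Hs where
  toFun h := ⟨a * h.x + b * h.y, c * h.x + d * h.y, (a * d - b * c) * h.z + l * h.x + m * h.y⟩
  map_one' := by ext <;> simp
  map_mul' h k := by ext <;> simp <;> ring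

@[simp] theorem lin_x (a b c d l m : ZMod 7) (h : Hs) : (lin a b c d l m h).x = a * h.x + b * h.y := rfl
@[simp] theorem lin_y (a b c d l m : ZMod 7) (h : Hs) : (lin a b c d l m h).y = c * h.x + d * h.y := rfl
@[simp] theorem lin_z (a b c d l m : ZMod 7) (h : Hs) :
    (lin a b c d l m h).z = (a * d - b * c) * h.z + l * h.x + m * h.y := rfl

theorem pow_six {a : ZMod 7} (h : a ≠ 0) : a ^ 6 = 1 := by
  revert a; decide

theorem nsq {x y : ZMod 7} (h : x ^ 2 + y ^ 2 = 0) : x = 0 ∧ y = 0 := by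
  revert x y; decide

/-- Rotations (similitudes of positive type) preserve the invariant. -/
theorem Qi_rot (a b l m : ZMod 7) (hab : a ^ 2 + b ^ 2 ≠ 0) (h k : Hs)
    (hk : h.x * k.y - h.y * k.x = 0) :
    Qi (lin a (-b) b a l m h) (lin a (-b) b a l m k) = Qi h k := by
  unfold Qi
  simp only [lin_x, lin_y, lin_z]
  have e : ∀ D : ZMod 7,
      ((D * k.z + l * k.x + m * k.y) * (a * h.x + -b * h.y) -
        (D * h.z + l * h.x + m * h.y) * (a * k.x + -b * k.y)) =
      D * (a * (k.z * h.x - h.z * k.x) - b * (k.z * h.y - h.z * k.y)) +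
        (m * a + l * b) * (h.x * k.y - h.y * k.x) := by intro D; ring
  have e2 : ∀ D : ZMod 7,
      ((D * k.z + l * k.x + m * k.y) * (b * h.x + a * h.y) -
        (D * h.z + l * h.x + m * h.y) * (b * k.x + a * k.y)) =
      D * (b * (k.z * h.x - h.z * k.x) + a * (k.z * h.y - h.z * k.y)) +
        (m * b - l * a) * (h.x * k.y - h.y * k.x) := by intro D; ring
  rw [e, e2, hk]
  set u := k.z * h.x - h.z * k.x
  set v := k.z * h.y - h.z * k.y
  have h1 : a * a - -b * b = a ^ 2 + b ^ 2 := by ring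
  rw [h1]
  have h6 := pow_six hab
  calc _ = (a ^ 2 + b ^ 2) ^ 6 * (u ^ 2 + v ^ 2) ^ 2 := by ring
    _ = _ := by rw [h6, one_mul]

/-- Reflections (similitudes of negative type) preserve the invariant. -/
theorem Qi_ref (a b l m : ZMod 7) (hab : a ^ 2 + b ^ 2 ≠ 0) (h k : Hs)
    (hk : h.x * k.y - h.y * k.x = 0) :
    Qi (lin a b b (-a) l m h) (lin a b b (-a) l m k) = Qi h k := by
  unfold Qi
  simp only [lin_x, lin_y, lin_z]
  have e : ∀ D : ZMod 7,
      ((D * k.z + l * k.x + m * k.y) * (a * h.x + b * h.y) -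
        (D * h.z + l * h.x + m * h.y) * (a * k.x + b * k.y)) =
      D * (a * (k.z * h.x - h.z * k.x) + b * (k.z * h.y - h.z * k.y)) +
        (m * a - l * b) * (h.x * k.y - h.y * k.x) := by intro D; ring
  have e2 : ∀ D : ZMod 7,
      ((D * k.z + l * k.x + m * k.y) * (b * h.x + -a * h.y) -
        (D * h.z + l * h.x + m * h.y) * (b * k.x + -a * k.y)) =
      D * (b * (k.z * h.x - h.z * k.x) - a * (k.z * h.y - h.z * k.y)) +
        (m * b + l * a) * (h.x * k.y - h.y * k.x) := by intro D; ring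
  rw [e, e2, hk]
  set u := k.z * h.x - h.z * k.x
  set v := k.z * h.y - h.z * k.y
  have h1 : a * -a - b * b = -(a ^ 2 + b ^ 2) := by ring
  rw [h1]
  have h6 := pow_six hab
  calc _ = (a ^ 2 + b ^ 2) ^ 6 * (u ^ 2 + v ^ 2) ^ 2 := by ring
    _ = _ := by rw [h6, one_mul]

theorem lin_injective (a b c d l m : ZMod 7) (hD : a * d - b * c ≠ 0) :
    Function.Injective (lin a b c d l m) := by
  have hD' : IsUnit (a * d - b * c) := by
    have hp : Fact (Nat.Prime 7) := ⟨by norm_num⟩
    exact isUnit_iff_ne_zero.2 hD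
  rw [injective_iff_map_eq_one]
  intro h hh
  have hx : a * h.x + b * h.y = 0 := congrArg Hs.x hh
  have hy : c * h.x + d * h.y = 0 := congrArg Hs.y hh
  have hz : (a * d - b * c) * h.z + l * h.x + m * h.y = 0 := congrArg Hs.z hh
  have h1 : h.x = 0 := hD'.mul_left_cancel (by linear_combination d * hx - b * hy)
  have h2 : h.y = 0 := hD'.mul_left_cancel (by linear_combination a * hy - c * hx)
  have h3 : h.z = 0 := hD'.mul_left_cancel (by linear_combination hz - l * h1 - m * h2)
  ext <;> simp [h1, h2, h3]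

/-- The restriction of a rotation to a subgroup is in the system. -/
theorem rot_mem (a b l m : ZMod 7) (hab : a ^ 2 + b ^ 2 ≠ 0) (P : Subgroup Hs) :
    (lin a (-b) b a l m).comp P.subtype ∈ sys.Hom P := by
  refine ⟨?_, ?_⟩
  · exact (lin_injective _ _ _ _ _ _ (by
      intro h; exact hab (by linear_combination h))).comp Subtype.val_injective
  · intro h k hk
    exact Qi_rot a b l m hab h k ((commute_iff _ _).1 (congrArg Subtype.val hk))

theorem ref_mem (a b l m : ZMod 7) (hab : a ^ 2 + b ^ 2 ≠ 0) (P : Subgroup Hs) :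
    (lin a b b (-a) l m).comp P.subtype ∈ sys.Hom P := by
  refine ⟨?_, ?_⟩
  · exact (lin_injective _ _ _ _ _ _ (by
      intro h; exact hab (by linear_combination -h))).comp Subtype.val_injective
  · intro h k hk
    exact Qi_ref a b l m hab h k ((commute_iff _ _).1 (congrArg Subtype.val hk))

end Cfsg.Agent.H778.Seven
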