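import Cfsg.Agent.H778.SevenSatD
import Cfsg.Agent.H759.FusTransportD
import Cfsg.Agent.S0098
import Cfsg.Agent.J2Type.ExtCube

/-!
# A saturated fusion system over an extraspecial group of order 343 with one class of elements of order 7
(helper778)
-/

set_option autoImplicit false

universe u

namespace Cfsg.Agent.H778.Seven

open Cfsg Cfsg.FusionSystem Cfsg.Agent.H802

attribute [local instance] prime_seven

theorem not_comm : ∃ x y : Hs, x * y ≠ y * x := by
  refine ⟨⟨1, 0, 0⟩, ⟨0, 1, 0⟩, ?_⟩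
  intro h
  have := (commute_iff _ _).1 h
  simp at this

theorem isExtraspecial_Hs : Cfsg.IsExtraspecial 7 Hs :=
  J2Type.ExtCube.isExtraspecial_of_card_cube (by rw [card_Hs]; norm_num) not_comm

theorem exponent_Hs : Monoid.exponent Hs = 7 := by
  have h1 : Monoid.exponent Hs ∣ 7 := Monoid.exponent_dvd_of_forall_pow_eq_one pow_seven
  rcases (Nat.dvd_prime (by norm_num)).1 h1 with h | h
  · exfalso
    rw [Monoid.exp_eq_one_iff] at h
    obtain ⟨x, y, hxy⟩ := not_comm
    exact hxy (Subsingleton.elim _ _)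
  · exact h

/-- **The system on every extraspecial group of order `7³` and exponent `7`.** -/
theorem exists_system {P : Type u} [Group P] [Finite P] (hE : Cfsg.IsExtraspecial 7 P)
    (hcard : Nat.card P = 7 ^ 3) (hexp : Monoid.exponent P = 7) :
    ∃ F : Cfsg.FusionSystem (⊤ : Subgroup P), F.IsSaturated 7 ∧
      ∀ g h : P, g ≠ 1 → h ≠ 1 →
        ∃ φ ∈ F.Hom (Subgroup.zpowers g), φ ⟨g, Subgroup.mem_zpowers g⟩ = h := by
  obtain ⟨e⟩ := S0098.result (E₁ := Hs) (E₂ := P) (p := 7) (by norm_num) isExtraspecial_Hs hE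
    exponent_Hs hexp (by rw [card_Hs, hcard]; norm_num)
  have hf : Function.Injective e.toMonoidHom := e.injective
  have htop : (⊤ : Subgroup P) = (⊤ : Subgroup Hs).map e.toMonoidHom := by
    rw [Subgroup.map_top_of_surjective _ e.surjective]
  obtain ⟨F, hF⟩ := H759.exists_push' (hf := hf) htop sys
  refine ⟨F, hF.isSaturated_iff.2 isSaturated, ?_⟩
  intro g h hg hh
  obtain ⟨g', rfl⟩ := e.surjective g
  obtain ⟨h', rfl⟩ := e.surjective h
  have hg' : g' ≠ 1 := fun h0 => hg (by rw [h0, map_one])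
  have hh' : h' ≠ 1 := fun h0 => hh (by rw [h0, map_one])
  obtain ⟨φ, hφ, hφg⟩ := conj_all g' h' hg' hh'
  have hc : F.IsConjElt (e g') (e h') := by
    have h1 : H759.cb hf φ ∈ F.Hom ((Subgroup.zpowers g').map e.toMonoidHom) := (hF.2 _ _).2 hφ
    have h2 : (Subgroup.zpowers g').map e.toMonoidHom = Subgroup.zpowers (e g') :=
      MonoidHom.map_zpowers _ _
    have key : ∀ (R : Subgroup P) (hR : (Subgroup.zpowers g').map e.toMonoidHom = R)
        (hm : e g' ∈ R), ∃ ψ ∈ F.Hom R, ψ ⟨e g', hm⟩ = e h' := by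
      intro R hR hm
      subst hR
      refine ⟨_, h1, ?_⟩
      have h3 := H759.cb_apply hf φ ⟨g', Subgroup.mem_zpowers g'⟩ hm
      rw [hφg] at h3
      exact h3
    exact key _ h2 _
  exact hc

/-- Conjugate elements have centralizers of the same index. -/
theorem index_conj {G : Type*} [Group G] (w c : G) :
    (Subgroup.centralizer ({w * c * w⁻¹} : Set G)).index = (Subgroup.centralizer ({c} : Set G)).index := by
  have h3 : Subgroup.centralizer ({w * c * w⁻¹} : Set G) =
      (Subgroup.centralizer ({c} : Set G)).comap (MulAut.conj w⁻¹).toMonoidHom := by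
    ext t
    rw [Subgroup.mem_comap, Subgroup.mem_centralizer_singleton_iff,
      Subgroup.mem_centralizer_singleton_iff]
    have h4 : (MulAut.conj w⁻¹).toMonoidHom t = w⁻¹ * t * w := by simp
    rw [h4]
    constructor
    · intro h
      have h5 := congrArg (fun s => w⁻¹ * s * w) h
      simp only [mul_assoc, inv_mul_cancel_left, inv_mul_cancel, mul_one] at h5
      simp only [mul_assoc]
      exact h5
    · intro h
      have h5 := congrArg (fun s => w * s * w⁻¹) h
      simp only [mul_assoc, mul_inv_cancel_left, mul_inv_cancel, mul_one] at h5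
      simp only [mul_assoc]
      exact h5
  rw [h3, Subgroup.index_comap_of_surjective]
  exact (MulAut.conj w⁻¹).surjective

/-- In a finite group realizing such a system every element of 7-power order is 7-central. -/
theorem pclass_of_realized {P : Type u} [Group P] [Finite P] {F : Cfsg.FusionSystem (⊤ : Subgroup P)}
    (hnt : ∃ z : P, z ≠ 1 ∧ z ∈ Subgroup.center P)
    (hF : ∀ g h : P, g ≠ 1 → h ≠ 1 →
        ∃ φ ∈ F.Hom (Subgroup.zpowers g), φ ⟨g, Subgroup.mem_zpowers g⟩ = h)
    {G : Type*} [Group G] [Finite G] (ι : (⊤ : Subgroup P) →* G) (hι : F.IsRealizedBy ι)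
    (T : Sylow 7 G) (hT : (T : Subgroup G) = ι.range) (x : G) (hx : ∃ k : ℕ, orderOf x = 7 ^ k) :
    ¬ 7 ∣ (Subgroup.centralizer ({x} : Set G)).index := by
  obtain ⟨k, hk⟩ := hx
  -- `x` is conjugate into `T`
  have hxp : IsPGroup 7 (Subgroup.zpowers x) := by
    refine IsPGroup.of_card (n := k) ?_
    rw [Nat.card_zpowers, hk]
  obtain ⟨R, hR⟩ := hxp.exists_le_sylow
  obtain ⟨g, hg⟩ := MulAction.exists_smul_eq G R T
  have hgx : g * x * g⁻¹ ∈ (T : Subgroup G) := by
    rw [← hg]
    have h1 : x ∈ R := hR (Subgroup.mem_zpowers x)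
    have h2 : (g • R : Sylow 7 G) = g • R := rfl
    rw [Sylow.coe_subgroup_smul]
    exact ⟨x, h1, rfl⟩
  -- reduction to `x ∈ T`
  have hred : ∀ y : G, y ∈ (T : Subgroup G) → ¬ 7 ∣ (Subgroup.centralizer ({y} : Set G)).index := by
    intro y hy
    rw [hT] at hy
    obtain ⟨a, rfl⟩ := hy
    obtain ⟨z, hz1, hzc⟩ := hnt
    have hTc : ∀ c : G, (T : Subgroup G) ≤ Subgroup.centralizer ({c} : Set G) →
        ¬ 7 ∣ (Subgroup.centralizer ({c} : Set G)).index := by
      intro c hc h7
      exact T.not_dvd_index (h7.trans (Subgroup.index_dvd_of_le hc))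
    by_cases ha : (a : P) = 1
    · have ha' : a = 1 := Subtype.ext ha
      refine hTc _ (fun t _ => ?_)
      rw [ha', map_one, Subgroup.mem_centralizer_iff]
      rintro _ rfl
      rw [one_mul, mul_one]
    · obtain ⟨φ, hφ, hφe⟩ := hF z (a : P) hz1 ha
      obtain ⟨w, hw⟩ := (hι.2 _ le_top φ (fun _ => Subgroup.mem_top _)).1 hφ
      have h1 := hw ⟨z, Subgroup.mem_zpowers z⟩
      have h2 : ι ⟨φ ⟨z, Subgroup.mem_zpowers z⟩, Subgroup.mem_top _⟩ = ι a := by
        congr 1; exact Subtype.ext hφe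
      rw [h2] at h1
      have hzT : (T : Subgroup G) ≤ Subgroup.centralizer ({ι ⟨z, Subgroup.mem_top z⟩} : Set G) := by
        intro t ht
        rw [hT] at ht
        obtain ⟨b, rfl⟩ := ht
        rw [Subgroup.mem_centralizer_iff]
        rintro _ rfl
        rw [← map_mul, ← map_mul]
        congr 1
        exact Subtype.ext (Subgroup.mem_center_iff.1 hzc b).symm
      have hc := hTc _ hzT
      rw [h1, index_conj]
      exact hc
  rw [← index_conj g x]
  exact hred _ hgx

end Cfsg.Agent.H778.Seven
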