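import Cfsg.Agent.H778.SevenGrp
import Cfsg.Agent.Transfer.ElemAbAut

/-!
# Saturation of the exotic fusion system over the Heisenberg group of order 343 (helper778)
-/

set_option autoImplicit false

namespace Cfsg.Agent.H778.Seven

open Cfsg Cfsg.FusionSystem Cfsg.Agent.H802

theorem prime_seven : Fact (Nat.Prime 7) := ⟨by norm_num⟩

attribute [local instance] prime_seven

/-! ### Planes -/

/-- The subgroup of order 49 over the line of `(p, q)`. -/
def pl (p q : ZMod 7) : Subgroup Hs where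
  carrier := {h | p * h.y - q * h.x = 0}
  one_mem' := by simp
  mul_mem' {a b} ha hb := by
    simp only [Set.mem_ofPred_eq, mul_x, mul_y] at *
    linear_combination ha + hb
  inv_mem' {a} ha := by
    simp only [Set.mem_ofPred_eq, inv_x, inv_y] at *
    linear_combination -ha

theorem mem_pl {p q : ZMod 7} {h : Hs} : h ∈ pl p q ↔ p * h.y - q * h.x = 0 := Iff.rfl

/-- The first coordinate of an element of a plane. -/
def sc (p q : ZMod 7) (h : Hs) : ZMod 7 := (p ^ 2 + q ^ 2) ^ 5 * (p * h.x + q * h.y)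

theorem nz {p q : ZMod 7} (h : ¬ (p = 0 ∧ q = 0)) : p ^ 2 + q ^ 2 ≠ 0 := fun h' => h (nsq h')

theorem sc_x {p q : ZMod 7} (hpq : ¬ (p = 0 ∧ q = 0)) {h : Hs} (hh : h ∈ pl p q) :
    h.x = sc p q h * p := by
  have h6 := pow_six (nz hpq)
  rw [mem_pl] at hh
  unfold sc
  calc h.x = (p ^ 2 + q ^ 2) ^ 6 * h.x := by rw [h6, one_mul]
    _ = (p ^ 2 + q ^ 2) ^ 5 * (p * h.x + q * h.y) * p -
        (p ^ 2 + q ^ 2) ^ 5 * q * (p * h.y - q * h.x) := by ring
    _ = _ := by rw [hh]; ring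

theorem sc_y {p q : ZMod 7} (hpq : ¬ (p = 0 ∧ q = 0)) {h : Hs} (hh : h ∈ pl p q) :
    h.y = sc p q h * q := by
  have h6 := pow_six (nz hpq)
  rw [mem_pl] at hh
  unfold sc
  calc h.y = (p ^ 2 + q ^ 2) ^ 6 * h.y := by rw [h6, one_mul]
    _ = (p ^ 2 + q ^ 2) ^ 5 * (p * h.x + q * h.y) * q +
        (p ^ 2 + q ^ 2) ^ 5 * p * (p * h.y - q * h.x) := by ring
    _ = _ := by rw [hh]; ring

theorem sc_mul (p q : ZMod 7) (h k : Hs) : sc p q (h * k) = sc p q h + sc p q k := by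
  unfold sc; simp only [mul_x, mul_y]; ring

theorem sc_self {p q : ZMod 7} (hpq : ¬ (p = 0 ∧ q = 0)) (s z : ZMod 7) :
    sc p q ⟨s * p, s * q, z⟩ = s := by
  unfold sc
  simp only
  have h6 := pow_six (nz hpq)
  calc _ = (p ^ 2 + q ^ 2) ^ 6 * s := by ring
    _ = _ := by rw [h6, one_mul]

theorem pl_comm {p q : ZMod 7} (hpq : ¬ (p = 0 ∧ q = 0)) {h k : Hs} (hh : h ∈ pl p q)
    (hk : k ∈ pl p q) : h.x * k.y - h.y * k.x = 0 := by
  rw [sc_x hpq hh, sc_y hpq hh, sc_x hpq hk, sc_y hpq hk]; ring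

/-- Coordinates of a plane. -/
def plEquiv {p q : ZMod 7} (hpq : ¬ (p = 0 ∧ q = 0)) : pl p q ≃ ZMod 7 × ZMod 7 where
  toFun h := (sc p q h, h.1.z)
  invFun t := ⟨⟨t.1 * p, t.1 * q, t.2⟩, by rw [mem_pl]; ring⟩
  left_inv h := by
    apply Subtype.ext
    ext
    · exact (sc_x hpq h.2).symm
    · exact (sc_y hpq h.2).symm
    · rfl
  right_inv t := by
    ext
    · exact sc_self hpq _ _
    · rfl

theorem card_pl {p q : ZMod 7} (hpq : ¬ (p = 0 ∧ q = 0)) : Nat.card (pl p q) = 49 := by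
  rw [Nat.card_congr (plEquiv hpq), Nat.card_prod, Nat.card_zmod]

/-- The linear maps from a plane to itself. -/
def plHom {p q : ZMod 7} (hpq : ¬ (p = 0 ∧ q = 0)) (α β γ δ : ZMod 7) : pl p q →* Hs where
  toFun h := ⟨(α * sc p q h + β * h.1.z) * p, (α * sc p q h + β * h.1.z) * q,
    γ * sc p q h + δ * h.1.z⟩
  map_one' := by ext <;> simp [sc]
  map_mul' h k := by
    have h1 := pl_comm hpq h.2 k.2
    have h2 : ((h * k : pl p q) : Hs).z = h.1.z + k.1.z := by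
      show (h.1 * k.1).z = _
      rw [mul_z, h1]; ring
    have h3 : sc p q ((h * k : pl p q) : Hs) = sc p q h + sc p q k := sc_mul p q h k
    ext
    · simp only [mul_x]; rw [h2, h3]; ring
    · simp only [mul_y]; rw [h2, h3]; ring
    · simp only [mul_z]; rw [h2, h3]; ring

theorem plHom_mem {p q : ZMod 7} (hpq : ¬ (p = 0 ∧ q = 0)) (α β γ δ : ZMod 7)
    (hd : (α * δ - β * γ) ^ 2 = 1) : plHom hpq α β γ δ ∈ sys.Hom (pl p q) := by
  have hu : IsUnit (α * δ - β * γ) := by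
    refine IsUnit.of_mul_eq_one (α * δ - β * γ) ?_
    rw [← hd]; ring
  refine ⟨?_, ?_⟩
  · rw [injective_iff_map_eq_one]
    intro h hh
    have hx : (α * sc p q h + β * h.1.z) * p = 0 := congrArg Hs.x hh
    have hy : (α * sc p q h + β * h.1.z) * q = 0 := congrArg Hs.y hh
    have hz : γ * sc p q h + δ * h.1.z = 0 := congrArg Hs.z hh
    have h0 : α * sc p q h + β * h.1.z = 0 := by
      have h6 := pow_six (nz hpq)
      calc _ = (p ^ 2 + q ^ 2) ^ 6 * (α * sc p q h + β * h.1.z) := by rw [h6, one_mul]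
        _ = (p ^ 2 + q ^ 2) ^ 5 * (((α * sc p q h + β * h.1.z) * p) * p +
            ((α * sc p q h + β * h.1.z) * q) * q) := by ring
        _ = 0 := by rw [hx, hy]; ring
    have h1 : sc p q h = 0 := hu.mul_left_cancel (by linear_combination δ * h0 - β * hz)
    have h2 : h.1.z = 0 := hu.mul_left_cancel (by linear_combination α * hz - γ * h0)
    apply Subtype.ext
    ext
    · rw [sc_x hpq h.2, h1]; simp
    · rw [sc_y hpq h.2, h1]; simp
    · rw [h2]; simp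
  · intro h k _
    unfold Qi
    have e1 := sc_x hpq h.2
    have e2 := sc_y hpq h.2
    have e3 := sc_x hpq k.2
    have e4 := sc_y hpq k.2
    show (((γ * sc p q k + δ * k.1.z) * ((α * sc p q h + β * h.1.z) * p) -
        (γ * sc p q h + δ * h.1.z) * ((α * sc p q k + β * k.1.z) * p)) ^ 2 +
      ((γ * sc p q k + δ * k.1.z) * ((α * sc p q h + β * h.1.z) * q) -
        (γ * sc p q h + δ * h.1.z) * ((α * sc p q k + β * k.1.z) * q)) ^ 2) ^ 2 = _
    rw [e1, e2, e3, e4]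
    set s := sc p q h
    set t := sc p q k
    calc _ = ((α * δ - β * γ) ^ 2) ^ 2 * ((k.1.z * s - h.1.z * t) ^ 2 * (p ^ 2 + q ^ 2)) ^ 2 := by ring
      _ = _ := by rw [hd]; ring

/-! ### The centre -/

/-- The centre. -/
def Zc : Subgroup Hs where
  carrier := {h | h.x = 0 ∧ h.y = 0}
  one_mem' := by simp
  mul_mem' {a b} ha hb := by
    simp only [Set.mem_ofPred_eq, mul_x, mul_y] at *
    rw [ha.1, ha.2, hb.1, hb.2]; simp
  inv_mem' {a} ha := by
    simp only [Set.mem_ofPred_eq, inv_x, inv_y] at *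
    rw [ha.1, ha.2]; simp

theorem mem_Zc {h : Hs} : h ∈ Zc ↔ h.x = 0 ∧ h.y = 0 := Iff.rfl

def ZcEquiv : Zc ≃ ZMod 7 where
  toFun h := h.1.z
  invFun t := ⟨⟨0, 0, t⟩, by rw [mem_Zc]; simp⟩
  left_inv h := by
    apply Subtype.ext
    ext
    · exact h.2.1.symm
    · exact h.2.2.symm
    · rfl
  right_inv t := rfl

theorem card_Zc : Nat.card Zc = 7 := by
  rw [Nat.card_congr ZcEquiv, Nat.card_zmod]

/-- A subgroup of order 7 is generated by each of its nontrivial elements. -/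
theorem eq_zpowers {P : Subgroup Hs} (hP : Nat.card P = 7) {g : Hs} (hg : g ∈ P) (hg1 : g ≠ 1) :
    Subgroup.zpowers g = P := by
  refine Subgroup.eq_of_le_of_card_ge (by rwa [Subgroup.zpowers_le]) ?_
  rw [Nat.card_zpowers, hP, orderOf_eq_prime (pow_seven g) hg1]

theorem exists_ne_one {P : Subgroup Hs} (hP : Nat.card P = 7) : ∃ g ∈ P, g ≠ 1 := by
  by_contra hcon
  push Not at hcon
  have : P = ⊥ := (Subgroup.eq_bot_iff_forall P).2 hcon
  rw [this] at hP
  simp at hP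

theorem good_of_card {P : Subgroup Hs} (hP : Nat.card P = 7) (φ : P →* Hs) : Good φ := by
  obtain ⟨g, hg, hg1⟩ := exists_ne_one hP
  have hz := eq_zpowers hP hg hg1
  have key : ∀ a : P, ∃ n : ℕ, a = ⟨g, hg⟩ ^ n := by
    intro a
    have ha : (a : Hs) ∈ Subgroup.zpowers g := by rw [hz]; exact a.2
    obtain ⟨n, hn⟩ := (mem_powers_iff_mem_zpowers (x := g)).2 ha
    exact ⟨n, Subtype.ext hn.symm⟩
  intro a b _
  obtain ⟨m, rfl⟩ := key a
  obtain ⟨n, rfl⟩ := key b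
  rw [map_pow, map_pow, Qi_pow]
  show _ = Qi (g ^ m) (g ^ n)
  rw [Qi_pow]

theorem good_of_bot {P : Subgroup Hs} (hP : P = ⊥) (φ : P →* Hs) : Good φ := by
  subst hP
  intro a b _
  have ha : a = 1 := Subsingleton.elim _ _
  have hb : b = 1 := Subsingleton.elim _ _
  subst ha hb
  simp [Qi]

/-! ### General lemmas -/

section General

variable {Ω : Type*} [Group Ω] {S : Subgroup Ω}

/-- If every element of `p`-power order of `B` lies in the `p`-subgroup `A`, it is a Sylow subgroup. -/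
theorem exists_sylow_of {G : Type*} [Group G] [Finite G] {p : ℕ} [Fact p.Prime] (A : Subgroup G)
    (hA : IsPGroup p A) (h : ∀ b : G, (∃ k : ℕ, b ^ p ^ k = 1) → b ∈ A) :
    ∃ R : Sylow p G, (R : Subgroup G) = A := by
  obtain ⟨R, hR⟩ := hA.exists_le_sylow
  refine ⟨R, le_antisymm (fun b hb => h b ?_) hR⟩
  obtain ⟨k, hk⟩ := R.2 ⟨b, hb⟩
  exact ⟨k, congrArg Subtype.val hk⟩

theorem receptive_aux (F : FusionSystem S) {P : Subgroup Ω} {φ : P →* Ω} (hφ : φ ∈ F.Hom P)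
    (h : extender S P φ ≤ P) :
    ∃ ψ ∈ F.Hom (extender S P φ), ∀ (x : Ω) (hP : x ∈ P) (hN : x ∈ extender S P φ),
      ψ ⟨x, hN⟩ = φ ⟨x, hP⟩ :=
  ⟨_, restrict_mem hφ h, fun _ _ _ => rfl⟩

theorem receptive_aux' (F : FusionSystem S) {P R : Subgroup Ω} {φ : P →* Ω} {ψ : R →* Ω}
    (hψ : ψ ∈ F.Hom R)
    (h : extender S P φ ≤ R) (he : ∀ (x : Ω) (hP : x ∈ P) (hN : x ∈ R), ψ ⟨x, hN⟩ = φ ⟨x, hP⟩) :
    ∃ ψ ∈ F.Hom (extender S P φ), ∀ (x : Ω) (hP : x ∈ P) (hN : x ∈ extender S P φ),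
      ψ ⟨x, hN⟩ = φ ⟨x, hP⟩ :=
  ⟨_, restrict_mem hψ h, fun x hP hN => he x hP (h hN)⟩

end General

end Cfsg.Agent.H778.Seven
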