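import Cfsg.Agent.H778.SevenSat

/-!
# Saturation of the exotic fusion system over the Heisenberg group of order 343, cases (helper778)
-/

set_option autoImplicit false

namespace Cfsg.Agent.H778.Seven

open Cfsg Cfsg.FusionSystem Cfsg.Agent.H802

attribute [local instance] prime_seven

section General

variable {Ω : Type*} [Group Ω] {S : Subgroup Ω}

theorem finite_mulAut {G : Type*} [Group G] [Finite G] : Finite (MulAut G) :=
  Finite.of_injective (fun (e : MulAut G) => (e : G → G)) (fun _ _ h => MulEquiv.ext (congrFun h))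

theorem isPGroup_subgroupOf {G : Type*} [Group G] {p : ℕ} {A B : Subgroup G} (hA : IsPGroup p A) :
    IsPGroup p (A.subgroupOf B) :=
  hA.comap_of_injective B.subtype Subtype.val_injective

theorem fullyAut_of {p : ℕ} [Fact p.Prime] [Finite S] (hS : IsPGroup p S) {F : FusionSystem S}
    {P : Subgroup Ω} (hP : P ≤ S)
    (h : ∀ α ∈ F.autGroup P, (∃ k : ℕ, α ^ p ^ k = 1) → α ∈ autInducedBy S P) :
    F.IsFullyAutomized p P := by
  refine ⟨hP, ?_⟩
  have := finite_of_le hP
  have := finite_mulAut (G := P)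
  refine exists_sylow_of _ (isPGroup_subgroupOf (isPGroup_autInducedBy hS P)) ?_
  rintro ⟨b, hb⟩ ⟨k, hk⟩
  rw [Subgroup.mem_subgroupOf]
  exact h b hb ⟨k, congrArg Subtype.val hk⟩

theorem fullyAut_of_card {p : ℕ} [Fact p.Prime] [Finite S] (hS : IsPGroup p S) {F : FusionSystem S}
    {P : Subgroup Ω} (hP : P ≤ S) (h1 : autInducedBy S P ≠ ⊥)
    (h2 : ¬ p ^ 2 ∣ Nat.card (MulAut P)) :
    F.IsFullyAutomized p P := by
  refine ⟨hP, ?_⟩
  have := finite_of_le hP
  have := finite_mulAut (G := P)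
  set A := (autInducedBy S P).subgroupOf (F.autGroup P) with hAdef
  have hA : IsPGroup p A := isPGroup_subgroupOf (isPGroup_autInducedBy hS P)
  have hAne : A ≠ ⊥ := by
    intro h0
    apply h1
    rw [Subgroup.eq_bot_iff_forall]
    intro a ha
    have h3 : (⟨a, autInducedBy_le_autGroup F hP ha⟩ : F.autGroup P) ∈ A := by
      rw [hAdef, Subgroup.mem_subgroupOf]; exact ha
    rw [h0, Subgroup.mem_bot] at h3
    exact congrArg Subtype.val h3
  obtain ⟨R, hR⟩ := hA.exists_le_sylow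
  refine ⟨R, ?_⟩
  obtain ⟨a, ha⟩ := IsPGroup.iff_card.1 hA
  obtain ⟨r, hr⟩ := IsPGroup.iff_card.1 R.2
  have ha1 : 1 ≤ a := by
    by_contra hcon
    have : a = 0 := by omega
    rw [this, pow_zero, Subgroup.card_eq_one] at ha
    exact hAne ha
  have hr1 : r ≤ 1 := by
    by_contra hcon
    apply h2
    have h4 : p ^ 2 ∣ p ^ r := pow_dvd_pow _ (by omega)
    refine h4.trans ?_
    have h5 : Nat.card (R : Subgroup (F.autGroup P)) = p ^ r := hr
    rw [← h5]
    exact (Subgroup.card_subgroup_dvd_card _).trans (Subgroup.card_subgroup_dvd_card _)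
  have h6 : Nat.card R = Nat.card (R : Subgroup (F.autGroup P)) := rfl
  refine (Subgroup.eq_of_le_of_card_ge hR ?_).symm
  rw [ha, ← h6, hr]
  exact Nat.pow_le_pow_right (Nat.Prime.pos Fact.out) (by omega)

end General

theorem isPGroup_top : IsPGroup 7 (⊤ : Subgroup Hs) := isPGroup_Hs.to_subgroup _

instance instFiniteTop : Finite (⊤ : Subgroup Hs) := inferInstance

/-! ### The trivial subgroup -/

theorem sat_bot : ∃ Q : Subgroup Hs, sys.IsConj ⊥ Q ∧ sys.IsFullyAutomized 7 Q ∧ sys.IsReceptive Q := by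
  refine ⟨⊥, isConj_refl _ le_top, ?_, le_top, ?_⟩
  · refine fullyAut_of isPGroup_top le_top ?_
    intro α _ _
    have : α = 1 := MulEquiv.ext fun x => Subsingleton.elim _ _
    rw [this]
    exact Subgroup.one_mem _
  · intro P φ hφ hr
    have hP : P = ⊥ := by
      rw [Subgroup.eq_bot_iff_forall]
      intro x hx
      have h1 : φ ⟨x, hx⟩ ∈ φ.range := ⟨_, rfl⟩
      rw [hr, Subgroup.mem_bot] at h1
      have h2 := hφ.1 (h1.trans (map_one φ).symm)
      exact congrArg Subtype.val h2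
    subst hP
    refine ⟨_, subtype_mem sys le_top, ?_⟩
    intro x hx hN
    have hx1 : x = 1 := hx
    subst hx1
    have : (⟨1, hx⟩ : (⊥ : Subgroup Hs)) = 1 := rfl
    rw [this, map_one]
    rfl

/-! ### Subgroups of order 7 -/

theorem conj_Zc (P : Subgroup Hs) (hP : Nat.card P = 7) : sys.IsConj P Zc := by
  have e : P ≃* Zc := mulEquivOfPrimeCardEq hP card_Zc
  refine ⟨Zc.subtype.comp e.toMonoidHom, ⟨?_, good_of_card hP _⟩, ?_⟩
  · exact Subtype.val_injective.comp e.injective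
  · ext x
    constructor
    · rintro ⟨y, rfl⟩
      exact (e y).2
    · intro hx
      refine ⟨e.symm ⟨x, hx⟩, ?_⟩
      show ((e (e.symm ⟨x, hx⟩) : Zc) : Hs) = x
      rw [e.apply_symm_apply]

theorem sumsq : ∀ c : ZMod 7, ∃ a b : ZMod 7, a ^ 2 + b ^ 2 = c := by decide

theorem auto_Zc : sys.IsFullyAutomized 7 Zc := by
  refine fullyAut_of isPGroup_top le_top ?_
  intro α _ hα
  obtain ⟨k, hk⟩ := hα
  have hc : Nat.card (MulAut Zc) = 6 := by
    rw [Transfer.ElemAbAut.card_mulAut (T := Zc) 7 1]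
    · simp
    · intro x y
      apply Subtype.ext
      show (x : Hs) * y = y * x
      rw [commute_iff, x.2.1, x.2.2]; ring
    · intro x
      exact Subtype.ext (pow_seven x)
    · rw [card_Zc]; norm_num
  have h1 : orderOf α ∣ 7 ^ k := orderOf_dvd_of_pow_eq_one hk
  have h2 : orderOf α ∣ 6 := hc ▸ orderOf_dvd_natCard α
  have h3 : orderOf α ∣ 1 := by
    have : Nat.Coprime (7 ^ k) 6 := Nat.Coprime.pow_left _ (by norm_num)
    rw [← this]
    exact Nat.dvd_gcd h1 h2
  have h4 : α = 1 := by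
    rw [← orderOf_eq_one_iff]; exact Nat.dvd_one.1 h3
  rw [h4]
  exact Subgroup.one_mem _

theorem hom_ext_zpowers {P : Subgroup Hs} {N : Type*} [Group N] {g : Hs} (hg : g ∈ P)
    (hz : Subgroup.zpowers g = P) (f₁ f₂ : P →* N) (h : f₁ ⟨g, hg⟩ = f₂ ⟨g, hg⟩) : f₁ = f₂ := by
  ext ⟨a, ha⟩
  have ha' : a ∈ Subgroup.zpowers g := by rw [hz]; exact ha
  obtain ⟨n, rfl⟩ := ha'
  have : (⟨g ^ n, ha⟩ : P) = ⟨g, hg⟩ ^ n := rfl
  show f₁ ⟨g ^ n, ha⟩ = f₂ ⟨g ^ n, ha⟩
  rw [this, map_zpow, map_zpow, h]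

theorem card_of_map {F : FusionSystem (⊤ : Subgroup Hs)} {P Q : Subgroup Hs} {φ : P →* Hs}
    (hφ : φ ∈ F.Hom P) (hr : φ.range = Q) : Nat.card P = Nat.card Q :=
  isConj_card_eq ⟨φ, hφ, hr⟩

theorem recep_Zc : sys.IsReceptive Zc := by
  refine ⟨le_top, ?_⟩
  intro P φ hφ hr
  have hP : Nat.card P = 7 := by rw [card_of_map hφ hr, card_Zc]
  have hval : ∀ x : P, φ x ∈ Zc := fun x => hr ▸ ⟨x, rfl⟩
  obtain ⟨g, hg, hg1⟩ := exists_ne_one hP
  have hz := eq_zpowers hP hg hg1
  have hφg := hval ⟨g, hg⟩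
  have hc0 : (φ ⟨g, hg⟩).z ≠ 0 := by
    intro h0
    apply hg1
    have h1 : φ ⟨g, hg⟩ = 1 := by
      ext
      · exact hφg.1
      · exact hφg.2
      · exact h0
    exact congrArg Subtype.val (hφ.1 (h1.trans (map_one φ).symm))
  by_cases hgz : g.x = 0 ∧ g.y = 0
  · -- `P` is the centre
    have hgz0 : g.z ≠ 0 := by
      intro h0
      apply hg1
      ext
      · exact hgz.1
      · exact hgz.2
      · exact h0
    obtain ⟨a, b, hab⟩ := sumsq ((φ ⟨g, hg⟩).z * g.z ^ 5)
    have hab0 : a ^ 2 + b ^ 2 ≠ 0 := by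
      rw [hab]
      exact mul_ne_zero hc0 (pow_ne_zero _ hgz0)
    refine receptive_aux' sys (R := ⊤) (rot_mem a b 0 0 hab0 ⊤) le_top ?_
    intro x hx hN
    have h1 : (((lin a (-b) b a 0 0).comp (⊤ : Subgroup Hs).subtype).comp
        (Subgroup.inclusion (le_top : P ≤ ⊤))) = φ := by
      refine hom_ext_zpowers hg hz _ _ ?_
      show lin a (-b) b a 0 0 g = φ ⟨g, hg⟩
      ext
      · rw [lin_x, hgz.1, hgz.2, hφg.1]; ring
      · rw [lin_y, hgz.1, hgz.2, hφg.2]; ring
      · rw [lin_z, hgz.1, hgz.2]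
        have h6 := pow_six hgz0
        calc _ = (a ^ 2 + b ^ 2) * g.z := by ring
          _ = (φ ⟨g, hg⟩).z * g.z ^ 6 := by rw [hab]; ring
          _ = _ := by rw [h6, mul_one]
    rw [← h1]
    rfl
  · -- `P` is not central
    have hgpl : g ∈ pl g.x g.y := by rw [mem_pl]; ring
    have hext : extender ⊤ P φ ≤ pl g.x g.y := by
      intro k hk
      have hkn := extender_le_normalizer _ _ _ hk
      have h1 : k * g * k⁻¹ ∈ P := (Subgroup.mem_normalizer_iff.1 hkn g).1 hg
      rw [conj_eq] at h1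
      rw [← hz] at h1
      obtain ⟨n, hn⟩ := (mem_powers_iff_mem_zpowers (x := g)).2 h1
      have hn' : g ^ n = ⟨g.x, g.y, g.z + (k.x * g.y - k.y * g.x)⟩ := hn
      rw [pow_eq] at hn'
      have e1 : (n : ZMod 7) * g.x = g.x := congrArg Hs.x hn'
      have e2 : (n : ZMod 7) * g.y = g.y := congrArg Hs.y hn'
      have e3 : (n : ZMod 7) * g.z = g.z + (k.x * g.y - k.y * g.x) := congrArg Hs.z hn'
      have hn1 : (n : ZMod 7) = 1 := by
        by_cases hx0 : g.x = 0
        · have hy0 : g.y ≠ 0 := fun h => hgz ⟨hx0, h⟩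
          exact mul_right_cancel₀ hy0 (by rw [e2, one_mul])
        · exact mul_right_cancel₀ hx0 (by rw [e1, one_mul])
      rw [hn1] at e3
      rw [mem_pl]
      linear_combination e3
    set c := (φ ⟨g, hg⟩).z with hc
    have hc6 := pow_six hc0
    -- the map `(1, 0) ↦ (- g.z / c, c)`, `(0, 1) ↦ (1 / c, 0)`
    refine receptive_aux' sys (plHom_mem hgz (-(c ^ 5 * g.z)) (c ^ 5) c 0 ?_) hext ?_
    · calc _ = (c ^ 6) ^ 2 := by ring
        _ = 1 := by rw [hc6]; ring
    · intro x hx hN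
      have hPpl : P ≤ pl g.x g.y := by
        rw [← hz, Subgroup.zpowers_le]; exact hgpl
      have h1 : ((plHom hgz (-(c ^ 5 * g.z)) (c ^ 5) c 0).comp (Subgroup.inclusion hPpl)) = φ := by
        refine hom_ext_zpowers hg hz _ _ ?_
        show plHom hgz (-(c ^ 5 * g.z)) (c ^ 5) c 0 ⟨g, hgpl⟩ = φ ⟨g, hg⟩
        have hs : sc g.x g.y g = 1 := by
          have := sc_self hgz 1 g.z
          rwa [one_mul, one_mul] at this
        ext
        · show (-(c ^ 5 * g.z) * sc g.x g.y g + c ^ 5 * g.z) * g.x = _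
          rw [hs, hφg.1]; ring
        · show (-(c ^ 5 * g.z) * sc g.x g.y g + c ^ 5 * g.z) * g.y = _
          rw [hs, hφg.2]; ring
        · show c * sc g.x g.y g + 0 * g.z = _
          rw [hs, ← hc]; ring
      rw [← h1]
      rfl

end Cfsg.Agent.H778.Seven
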