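import Cfsg.Agent.H778.SevenSatB

/-!
# Saturation of the exotic fusion system over the Heisenberg group of order 343: the subgroups
of order 49 and 343 (helper778)
-/

set_option autoImplicit false

namespace Cfsg.Agent.H778.Seven

open Cfsg Cfsg.FusionSystem Cfsg.Agent.H802

attribute [local instance] prime_seven

theorem eq_pl {P : Subgroup Hs} (hP : Nat.card P = 49) :
    ∃ p q : ZMod 7, ¬ (p = 0 ∧ q = 0) ∧ P = pl p q := by
  have hcomm : ∀ x y : P, x * y = y * x := by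
    have h1 : Nat.card P = 7 ^ 2 := by rw [hP]; norm_num
    intro x y
    exact (IsPGroup.commGroupOfCardEqPrimeSq h1).mul_comm x y
  obtain ⟨g, hg, hgz⟩ : ∃ g ∈ P, ¬ (g.x = 0 ∧ g.y = 0) := by
    by_contra hcon
    push Not at hcon
    have h1 : P ≤ Zc := fun g hg => by
      rw [mem_Zc]
      exact hcon g hg
    have h2 := Subgroup.card_le_of_le h1
    rw [hP, card_Zc] at h2
    omega
  refine ⟨g.x, g.y, hgz, Subgroup.eq_of_le_of_card_ge ?_ (by rw [card_pl hgz, hP])⟩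
  intro k hk
  exact (commute_iff _ _).1 (congrArg Subtype.val (hcomm ⟨g, hg⟩ ⟨k, hk⟩))

theorem gen_mem (p q : ZMod 7) : (⟨p, q, 0⟩ : Hs) ∈ pl p q := by
  rw [mem_pl]; ring

theorem cen_mem (p q z : ZMod 7) : (⟨0, 0, z⟩ : Hs) ∈ pl p q := by
  rw [mem_pl]; ring

theorem auto_pl {p q : ZMod 7} (hpq : ¬ (p = 0 ∧ q = 0)) : sys.IsFullyAutomized 7 (pl p q) := by
  refine fullyAut_of_card isPGroup_top le_top ?_ ?_
  · intro h0
    have hn : (⟨-q, p, 0⟩ : Hs) ∈ Subgroup.normalizer (pl p q : Set Hs) := by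
      rw [Subgroup.mem_normalizer_iff]
      intro h
      rw [conj_eq]
      show h ∈ pl p q ↔ _ ∈ pl p q
      rw [mem_pl, mem_pl]
    obtain ⟨α, hα⟩ := exists_conjAut hn
    have h1 : α ∈ autInducedBy (⊤ : Subgroup Hs) (pl p q) :=
      (mem_autInducedBy_iff _ _ _).2 ⟨_, Subgroup.mem_top _, hα⟩
    rw [h0, Subgroup.mem_bot] at h1
    have h2 := hα ⟨_, gen_mem p q⟩
    rw [h1, conj_eq] at h2
    have h3 : (0 : ZMod 7) = 0 + (-q * q - p * p) := congrArg Hs.z h2
    exact nz hpq (by linear_combination h3)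
  · rw [Transfer.ElemAbAut.card_mulAut (T := pl p q) 7 2]
    · simp [Fin.prod_univ_succ]
    · intro x y
      apply Subtype.ext
      show (x : Hs) * y = y * x
      rw [commute_iff]
      exact pl_comm hpq x.2 y.2
    · intro x
      exact Subtype.ext (pow_seven x)
    · rw [card_pl hpq]; norm_num

theorem hom_ext_pl {p q : ZMod 7} (hpq : ¬ (p = 0 ∧ q = 0)) {N : Type*} [Group N]
    (f₁ f₂ : pl p q →* N) (h1 : f₁ ⟨_, gen_mem p q⟩ = f₂ ⟨_, gen_mem p q⟩)
    (h2 : f₁ ⟨_, cen_mem p q 1⟩ = f₂ ⟨_, cen_mem p q 1⟩) : f₁ = f₂ := by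
  ext h
  have hh : h = (⟨_, gen_mem p q⟩ : pl p q) ^ (sc p q h).val * (⟨_, cen_mem p q 1⟩ : pl p q) ^ (h.1.z).val := by
    apply Subtype.ext
    show (h : Hs) = (⟨p, q, 0⟩ : Hs) ^ (sc p q h).val * (⟨0, 0, 1⟩ : Hs) ^ (h.1.z).val
    rw [pow_eq, pow_eq, ZMod.natCast_zmod_val, ZMod.natCast_zmod_val]
    ext
    · simp only [mul_x]
      rw [mul_zero, add_zero]
      exact sc_x hpq h.2
    · simp only [mul_y]
      rw [mul_zero, add_zero]
      exact sc_y hpq h.2
    · simp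
  rw [hh, map_mul, map_mul, map_pow, map_pow, map_pow, map_pow, h1, h2]

theorem recep_pl {P : Subgroup Hs} (hP : Nat.card P = 49) : sys.IsReceptive P := by
  refine ⟨le_top, ?_⟩
  intro P' φ hφ hr
  have hP' : Nat.card P' = 49 := by rw [card_of_map hφ hr, hP]
  obtain ⟨p, q, hpq, rfl⟩ := eq_pl hP'
  by_cases hext : extender ⊤ (pl p q) φ ≤ pl p q
  · exact receptive_aux sys hφ hext
  obtain ⟨k, hk, hkn⟩ := SetLike.not_le_iff_exists.1 hext
  obtain ⟨-, -, h, -, hh⟩ := (mem_extender_iff _ _ _ _).1 hk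
  set w := k.x * q - k.y * p with hw
  have hw0 : w ≠ 0 := by
    intro h0
    apply hkn
    rw [mem_pl]
    linear_combination -h0
  -- the image of the centre
  have hz1 : (φ ⟨_, cen_mem p q w⟩) ∈ Zc := by
    have hkx : k * (⟨p, q, 0⟩ : Hs) * k⁻¹ = ⟨p, q, w⟩ := by
      rw [conj_eq]; ext
      · rfl
      · rfl
      · simp [hw]
    have hmem : k * (⟨p, q, 0⟩ : Hs) * k⁻¹ ∈ pl p q := by
      rw [hkx, mem_pl]; ring
    have h3 := hh ⟨_, gen_mem p q⟩ hmem
    have h4 : (⟨_, hmem⟩ : pl p q) = ⟨_, gen_mem p q⟩ * ⟨_, cen_mem p q w⟩ := by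
      apply Subtype.ext
      show k * (⟨p, q, 0⟩ : Hs) * k⁻¹ = (⟨p, q, 0⟩ : Hs) * ⟨0, 0, w⟩
      rw [hkx]
      ext <;> simp
    have h5 : (⟨k * ((⟨_, gen_mem p q⟩ : pl p q) : Hs) * k⁻¹, hmem⟩ : pl p q) =
        ⟨_, gen_mem p q⟩ * ⟨_, cen_mem p q w⟩ := h4
    rw [h5, map_mul, conj_eq] at h3
    have ex := congrArg Hs.x h3
    have ey := congrArg Hs.y h3
    simp only [mul_x, mul_y] at ex ey
    rw [mem_Zc]
    constructor
    · linear_combination ex
    · linear_combination ey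
  have hz2 : (φ ⟨_, cen_mem p q 1⟩) ∈ Zc := by
    have h6 : (⟨_, cen_mem p q 1⟩ : pl p q) = ⟨_, cen_mem p q w⟩ ^ (w ^ 5).val := by
      apply Subtype.ext
      show (⟨0, 0, 1⟩ : Hs) = (⟨0, 0, w⟩ : Hs) ^ (w ^ 5).val
      rw [pow_eq, ZMod.natCast_zmod_val]
      ext
      · simp
      · simp
      · show (1 : ZMod 7) = w ^ 5 * w
        rw [← pow_succ]; exact (pow_six hw0).symm
    rw [h6, map_pow]
    exact Subgroup.pow_mem _ hz1 _
  set c := (φ ⟨_, cen_mem p q 1⟩).z with hc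
  have hc0 : c ≠ 0 := by
    intro h0
    have h1 : φ ⟨_, cen_mem p q 1⟩ = 1 := by
      ext
      · exact hz2.1
      · exact hz2.2
      · exact h0
    have h2 := congrArg Subtype.val (hφ.1 (h1.trans (map_one φ).symm))
    have h3 : (1 : ZMod 7) = 0 := congrArg Hs.z h2
    exact absurd h3 (by decide)
  set r := (φ ⟨_, gen_mem p q⟩).x with hr'
  set s := (φ ⟨_, gen_mem p q⟩).y with hs'
  set e := (φ ⟨_, gen_mem p q⟩).z with he'
  have hN := hφ.2 ⟨_, gen_mem p q⟩ ⟨_, cen_mem p q 1⟩ (by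
    apply Subtype.ext
    show (⟨p, q, 0⟩ : Hs) * ⟨0, 0, 1⟩ = ⟨0, 0, 1⟩ * ⟨p, q, 0⟩
    rw [commute_iff]; ring)
  have hN' : c ^ 4 * (r ^ 2 + s ^ 2) ^ 2 = (p ^ 2 + q ^ 2) ^ 2 := by
    unfold Qi at hN
    rw [hz2.1, hz2.2, ← hc, ← hr', ← hs', ← he'] at hN
    simp only at hN
    linear_combination hN
  have hN0 := nz hpq
  have hN6 := pow_six hN0
  have hc6 := pow_six hc0
  have hfac : (c * (p ^ 2 + q ^ 2) - (r ^ 2 + s ^ 2)) * (c * (p ^ 2 + q ^ 2) + (r ^ 2 + s ^ 2)) = 0 := by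
    calc _ = c ^ 2 * (p ^ 2 + q ^ 2) ^ 2 - (r ^ 2 + s ^ 2) ^ 2 := by ring
      _ = c ^ 6 * (r ^ 2 + s ^ 2) ^ 2 - (r ^ 2 + s ^ 2) ^ 2 := by rw [← hN']; ring
      _ = 0 := by rw [hc6]; ring
  set n := p ^ 2 + q ^ 2 with hn
  rcases mul_eq_zero.1 hfac with hcase | hcase
  · -- rotation
    have hM : r ^ 2 + s ^ 2 = c * n := by linear_combination -hcase
    set a := (r * p + s * q) * n ^ 5 with ha
    set b := (s * p - r * q) * n ^ 5 with hb
    have hdet : a ^ 2 + b ^ 2 = c := by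
      calc _ = n ^ 10 * ((r ^ 2 + s ^ 2) * (p ^ 2 + q ^ 2)) := by rw [ha, hb]; ring
        _ = n ^ 6 * n ^ 6 * c := by rw [hM, ← hn]; ring
        _ = c := by rw [hN6]; ring
    refine receptive_aux' sys (R := ⊤) (rot_mem a b (e * p * n ^ 5) (e * q * n ^ 5)
      (by rw [hdet]; exact hc0) ⊤) le_top ?_
    intro x hx hN
    have h1 : (((lin a (-b) b a (e * p * n ^ 5) (e * q * n ^ 5)).comp (⊤ : Subgroup Hs).subtype).comp
        (Subgroup.inclusion (le_top : pl p q ≤ ⊤))) = φ := by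
      refine hom_ext_pl hpq _ _ ?_ ?_
      · show lin a (-b) b a (e * p * n ^ 5) (e * q * n ^ 5) ⟨p, q, 0⟩ = _
        ext
        · rw [lin_x, ← hr']
          calc _ = n ^ 5 * (p ^ 2 + q ^ 2) * r := by simp only [ha, hb]; ring
            _ = n ^ 6 * r := by rw [← hn]; ring
            _ = r := by rw [hN6, one_mul]
        · rw [lin_y, ← hs']
          calc _ = n ^ 5 * (p ^ 2 + q ^ 2) * s := by simp only [ha, hb]; ring
            _ = n ^ 6 * s := by rw [← hn]; ring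
            _ = s := by rw [hN6, one_mul]
        · rw [lin_z, ← he']
          calc _ = n ^ 5 * (p ^ 2 + q ^ 2) * e := by simp only; ring
            _ = n ^ 6 * e := by rw [← hn]; ring
            _ = e := by rw [hN6, one_mul]
      · show lin a (-b) b a (e * p * n ^ 5) (e * q * n ^ 5) ⟨0, 0, 1⟩ = _
        ext
        · rw [lin_x, hz2.1]; ring
        · rw [lin_y, hz2.2]; ring
        · rw [lin_z, ← hc]
          calc _ = a ^ 2 + b ^ 2 := by simp only; ring
            _ = c := hdet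
    rw [← h1]
    rfl
  · -- reflection
    have hM : r ^ 2 + s ^ 2 = -(c * n) := by linear_combination hcase
    set a := (r * p - s * q) * n ^ 5 with ha
    set b := (r * q + s * p) * n ^ 5 with hb
    have hdet : a ^ 2 + b ^ 2 = -c := by
      calc _ = n ^ 10 * ((r ^ 2 + s ^ 2) * (p ^ 2 + q ^ 2)) := by rw [ha, hb]; ring
        _ = -(n ^ 6 * n ^ 6 * c) := by rw [hM, ← hn]; ring
        _ = -c := by rw [hN6]; ring
    refine receptive_aux' sys (R := ⊤) (ref_mem a b (e * p * n ^ 5) (e * q * n ^ 5)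
      (by rw [hdet]; exact neg_ne_zero.2 hc0) ⊤) le_top ?_
    intro x hx hN
    have h1 : (((lin a b b (-a) (e * p * n ^ 5) (e * q * n ^ 5)).comp (⊤ : Subgroup Hs).subtype).comp
        (Subgroup.inclusion (le_top : pl p q ≤ ⊤))) = φ := by
      refine hom_ext_pl hpq _ _ ?_ ?_
      · show lin a b b (-a) (e * p * n ^ 5) (e * q * n ^ 5) ⟨p, q, 0⟩ = _
        ext
        · rw [lin_x, ← hr']
          calc _ = n ^ 5 * (p ^ 2 + q ^ 2) * r := by simp only [ha, hb]; ring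
            _ = n ^ 6 * r := by rw [← hn]; ring
            _ = r := by rw [hN6, one_mul]
        · rw [lin_y, ← hs']
          calc _ = n ^ 5 * (p ^ 2 + q ^ 2) * s := by simp only [ha, hb]; ring
            _ = n ^ 6 * s := by rw [← hn]; ring
            _ = s := by rw [hN6, one_mul]
        · rw [lin_z, ← he']
          calc _ = n ^ 5 * (p ^ 2 + q ^ 2) * e := by simp only; ring
            _ = n ^ 6 * e := by rw [← hn]; ring
            _ = e := by rw [hN6, one_mul]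
      · show lin a b b (-a) (e * p * n ^ 5) (e * q * n ^ 5) ⟨0, 0, 1⟩ = _
        ext
        · rw [lin_x, hz2.1]; ring
        · rw [lin_y, hz2.2]; ring
        · rw [lin_z, ← hc]
          calc _ = -(a ^ 2 + b ^ 2) := by simp only; ring
            _ = c := by rw [hdet]; ring
    rw [← h1]
    rfl

end Cfsg.Agent.H778.Seven
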