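import Cfsg.Agent.H778.SevenSatC

/-!
# Saturation of the exotic fusion system over the Heisenberg group of order 343: end (helper778)
-/

set_option autoImplicit false

namespace Cfsg.Agent.H778.Seven

open Cfsg Cfsg.FusionSystem Cfsg.Agent.H802

attribute [local instance] prime_seven

theorem hom_ext_Hs {N : Type*} [Group N] (f₁ f₂ : Hs →* N) (h1 : f₁ ⟨1, 0, 0⟩ = f₂ ⟨1, 0, 0⟩)
    (h2 : f₁ ⟨0, 1, 0⟩ = f₂ ⟨0, 1, 0⟩) : f₁ = f₂ := by
  have h3 : f₁ ⟨0, 0, 1⟩ = f₂ ⟨0, 0, 1⟩ := by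
    have e : (⟨0, 0, 1⟩ : Hs) = ⟨1, 0, 0⟩ * ⟨0, 1, 0⟩ * (⟨1, 0, 0⟩)⁻¹ * (⟨0, 1, 0⟩)⁻¹ := by
      rw [conj_eq]
      ext <;> simp
    rw [e]
    simp only [map_mul, map_inv, h1, h2]
  ext h
  have hh : h = (⟨1, 0, 0⟩ : Hs) ^ h.x.val * (⟨0, 1, 0⟩ : Hs) ^ h.y.val *
      (⟨0, 0, 1⟩ : Hs) ^ (h.z - 4 * (h.x * h.y)).val := by
    rw [pow_eq, pow_eq, pow_eq, ZMod.natCast_zmod_val, ZMod.natCast_zmod_val, ZMod.natCast_zmod_val]
    ext
    · simp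
    · simp
    · simp
  rw [hh]
  simp only [map_mul, map_pow, h1, h2, h3]

theorem eq_lin (f : Hs →* Hs) : f = lin (f ⟨1, 0, 0⟩).x (f ⟨0, 1, 0⟩).x (f ⟨1, 0, 0⟩).y
    (f ⟨0, 1, 0⟩).y (f ⟨1, 0, 0⟩).z (f ⟨0, 1, 0⟩).z := by
  refine hom_ext_Hs _ _ ?_ ?_
  · ext
    · rw [lin_x]; ring
    · rw [lin_y]; ring
    · rw [lin_z]; ring
  · ext
    · rw [lin_x]; ring
    · rw [lin_y]; ring
    · rw [lin_z]; ring

/-- The condition on the linear part. -/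
def cond (a b c d x y : ZMod 7) : Prop :=
  (((a * d - b * c) * (a * x + b * y)) ^ 2 + ((a * d - b * c) * (c * x + d * y)) ^ 2) ^ 2 =
    (x ^ 2 + y ^ 2) ^ 2

instance instDecCond (a b c d x y : ZMod 7) : Decidable (cond a b c d x y) :=
  inferInstanceAs (Decidable (_ = _))

theorem sim_of_cond : ∀ a b c d : ZMod 7, cond a b c d 1 0 → cond a b c d 0 1 → cond a b c d 1 1 →
    cond a b c d 1 2 → cond a b c d 1 3 → cond a b c d 1 4 → cond a b c d 1 5 →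
    (d = a ∧ b = -c ∧ ¬ (a = 0 ∧ c = 0)) ∨ (d = -a ∧ b = c ∧ ¬ (a = 0 ∧ c = 0)) := by
  decide +kernel

/-- The vector of an element. -/
def vec (h : Hs) : Fin 2 → ZMod 7 := ![h.x, h.y]

theorem vec_lin (a b c d l m : ZMod 7) (h : Hs) :
    vec (lin a b c d l m h) = (!![a, b; c, d] : Matrix (Fin 2) (Fin 2) (ZMod 7)).mulVec (vec h) := by
  unfold vec
  funext i
  fin_cases i
  · simp [Matrix.mulVec, dotProduct, Fin.sum_univ_two]
  · simp [Matrix.mulVec, dotProduct, Fin.sum_univ_two]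

theorem rot_pow (a c : ZMod 7) (h : ¬ (a = 0 ∧ c = 0)) :
    (!![a, -c; c, a] : Matrix (Fin 2) (Fin 2) (ZMod 7)) ^ 48 = 1 := by
  have h6 := pow_six (nz h)
  have h2 : (!![a, -c; c, a] : Matrix (Fin 2) (Fin 2) (ZMod 7)) ^ 2 =
      !![a ^ 2 - c ^ 2, -(2 * a * c); 2 * a * c, a ^ 2 - c ^ 2] := by
    rw [pow_two, Matrix.mul_fin_two]
    congr 1
    ext i j
    fin_cases i <;> fin_cases j <;> simp <;> ring
  have h4 : (!![a, -c; c, a] : Matrix (Fin 2) (Fin 2) (ZMod 7)) ^ 4 =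
      !![(a ^ 2 - c ^ 2) ^ 2 - (2 * a * c) ^ 2, -(2 * (a ^ 2 - c ^ 2) * (2 * a * c));
        2 * (a ^ 2 - c ^ 2) * (2 * a * c), (a ^ 2 - c ^ 2) ^ 2 - (2 * a * c) ^ 2] := by
    rw [show 4 = 2 * 2 from rfl, pow_mul, h2, pow_two, Matrix.mul_fin_two]
    congr 1
    ext i j
    fin_cases i <;> fin_cases j <;> simp <;> ring
  have h8 : (!![a, -c; c, a] : Matrix (Fin 2) (Fin 2) (ZMod 7)) ^ 8 =
      !![a ^ 2 + c ^ 2, 0; 0, a ^ 2 + c ^ 2] := by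
    rw [show 8 = 4 * 2 from rfl, pow_mul, h4, pow_two, Matrix.mul_fin_two]
    have e1 : ∀ a c : ZMod 7, ((a ^ 2 - c ^ 2) ^ 2 - (2 * a * c) ^ 2) * ((a ^ 2 - c ^ 2) ^ 2 - (2 * a * c) ^ 2) +
        -(2 * (a ^ 2 - c ^ 2) * (2 * a * c)) * (2 * (a ^ 2 - c ^ 2) * (2 * a * c)) = a ^ 2 + c ^ 2 := by
      decide
    have e2 : ∀ a c : ZMod 7, ((a ^ 2 - c ^ 2) ^ 2 - (2 * a * c) ^ 2) * -(2 * (a ^ 2 - c ^ 2) * (2 * a * c)) +
        -(2 * (a ^ 2 - c ^ 2) * (2 * a * c)) * ((a ^ 2 - c ^ 2) ^ 2 - (2 * a * c) ^ 2) = 0 := by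
      decide
    have e3 : ∀ a c : ZMod 7, (2 * (a ^ 2 - c ^ 2) * (2 * a * c)) * ((a ^ 2 - c ^ 2) ^ 2 - (2 * a * c) ^ 2) +
        ((a ^ 2 - c ^ 2) ^ 2 - (2 * a * c) ^ 2) * (2 * (a ^ 2 - c ^ 2) * (2 * a * c)) = 0 := by
      decide
    have e4 : ∀ a c : ZMod 7, (2 * (a ^ 2 - c ^ 2) * (2 * a * c)) * -(2 * (a ^ 2 - c ^ 2) * (2 * a * c)) +
        ((a ^ 2 - c ^ 2) ^ 2 - (2 * a * c) ^ 2) * ((a ^ 2 - c ^ 2) ^ 2 - (2 * a * c) ^ 2) = a ^ 2 + c ^ 2 := by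
      decide
    rw [e1, e2, e3, e4]
  have h8' : (!![a, -c; c, a] : Matrix (Fin 2) (Fin 2) (ZMod 7)) ^ 8 = (a ^ 2 + c ^ 2) • 1 := by
    rw [h8]
    ext i j
    fin_cases i <;> fin_cases j <;> simp
  rw [show 48 = 8 * 6 from rfl, pow_mul, h8', smul_pow, one_pow, h6, one_smul]

theorem ref_pow (a c : ZMod 7) (h : ¬ (a = 0 ∧ c = 0)) :
    (!![a, c; c, -a] : Matrix (Fin 2) (Fin 2) (ZMod 7)) ^ 48 = 1 := by
  have h6 := pow_six (nz h)
  have h2 : (!![a, c; c, -a] : Matrix (Fin 2) (Fin 2) (ZMod 7)) ^ 2 = (a ^ 2 + c ^ 2) • 1 := by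
    rw [pow_two, Matrix.mul_fin_two]
    ext i j
    fin_cases i <;> fin_cases j <;> simp <;> ring
  rw [show 48 = 2 * 24 from rfl, pow_mul, h2, smul_pow, one_pow,
    show 24 = 6 * 4 from rfl, pow_mul, h6, one_pow, one_smul]

theorem card_top : Nat.card (⊤ : Subgroup Hs) = 343 := by
  rw [Subgroup.card_top, card_Hs]

/-- The endomorphism of `Hs` given by an automorphism of the top subgroup. -/
def endo (α : MulAut (⊤ : Subgroup Hs)) : Hs →* Hs where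
  toFun h := ((α ⟨h, Subgroup.mem_top h⟩ : (⊤ : Subgroup Hs)) : Hs)
  map_one' := by
    have : (⟨1, Subgroup.mem_top 1⟩ : (⊤ : Subgroup Hs)) = 1 := rfl
    rw [this, map_one]; rfl
  map_mul' a b := by
    have : (⟨a * b, Subgroup.mem_top _⟩ : (⊤ : Subgroup Hs)) =
      ⟨a, Subgroup.mem_top a⟩ * ⟨b, Subgroup.mem_top b⟩ := rfl
    rw [this, map_mul]; rfl

theorem endo_apply (α : MulAut (⊤ : Subgroup Hs)) (x : (⊤ : Subgroup Hs)) :
    endo α (x : Hs) = ((α x : (⊤ : Subgroup Hs)) : Hs) := rfl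

theorem auto_top : sys.IsFullyAutomized 7 (⊤ : Subgroup Hs) := by
  refine fullyAut_of isPGroup_top le_top ?_
  rintro α hα ⟨k, hk⟩
  have hα' := (mem_autGroup_iff sys le_top α).1 hα
  set f := endo α with hf
  obtain ⟨a, b, c, d, l, m, hlin⟩ : ∃ a b c d l m, f = lin a b c d l m :=
    ⟨_, _, _, _, _, _, eq_lin f⟩
  have hcond : ∀ x y : ZMod 7, cond a b c d x y := by
    intro x y
    have h1 := hα'.2 ⟨⟨x, y, 0⟩, Subgroup.mem_top _⟩ ⟨⟨0, 0, 1⟩, Subgroup.mem_top _⟩ (by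
      apply Subtype.ext
      show (⟨x, y, 0⟩ : Hs) * ⟨0, 0, 1⟩ = ⟨0, 0, 1⟩ * ⟨x, y, 0⟩
      rw [commute_iff]; ring)
    have h2 : Qi (f ⟨x, y, 0⟩) (f ⟨0, 0, 1⟩) = Qi ⟨x, y, 0⟩ ⟨0, 0, 1⟩ := h1
    rw [hlin] at h2
    unfold Qi at h2
    simp only [lin_x, lin_y, lin_z] at h2
    unfold cond
    linear_combination h2
  have hM : (!![a, b; c, d] : Matrix (Fin 2) (Fin 2) (ZMod 7)) ^ 48 = 1 := by
    rcases sim_of_cond a b c d (hcond _ _) (hcond _ _) (hcond _ _) (hcond _ _) (hcond _ _)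
      (hcond _ _) (hcond _ _) with ⟨rfl, rfl, h0⟩ | ⟨rfl, rfl, h0⟩
    · exact rot_pow _ _ h0
    · exact ref_pow _ _ h0
  have hpow : ∀ (n : ℕ) (x : (⊤ : Subgroup Hs)),
      vec (((α ^ n) x : (⊤ : Subgroup Hs)) : Hs) =
        ((!![a, b; c, d] : Matrix (Fin 2) (Fin 2) (ZMod 7)) ^ n).mulVec (vec (x : Hs)) := by
    intro n
    induction n with
    | zero => intro x; simp
    | succ n ih =>
      intro x
      rw [pow_succ', MulAut.mul_apply, pow_succ', ← Matrix.mulVec_mulVec, ← ih, ← endo_apply, ← hf,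
        hlin, vec_lin]
  set β := α ^ 48 with hβ
  have hβv : ∀ h : Hs, vec (endo β h) = vec h := by
    intro h
    have h1 := hpow 48 ⟨h, Subgroup.mem_top h⟩
    rw [hM, Matrix.one_mulVec] at h1
    exact h1
  have hβin : β ∈ autInducedBy (⊤ : Subgroup Hs) ⊤ := by
    rw [mem_autInducedBy_iff]
    set g := endo β with hg
    have e1 := congrFun (hβv ⟨1, 0, 0⟩) 0
    have e2 := congrFun (hβv ⟨1, 0, 0⟩) 1
    have e3 := congrFun (hβv ⟨0, 1, 0⟩) 0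
    have e4 := congrFun (hβv ⟨0, 1, 0⟩) 1
    simp only [vec, Matrix.cons_val_zero, Matrix.cons_val_one] at e1 e2 e3 e4
    have hg1 := eq_lin g
    rw [e1, e2, e3, e4] at hg1
    refine ⟨⟨(g ⟨0, 1, 0⟩).z, -(g ⟨1, 0, 0⟩).z, 0⟩, Subgroup.mem_top _, ?_⟩
    intro x
    rw [← endo_apply, ← hg, conj_eq]
    conv_lhs => rw [hg1]
    ext
    · rw [lin_x]; ring
    · rw [lin_y]; ring
    · rw [lin_z]; ring
  have hcop : Nat.Coprime 48 (orderOf α) := by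
    have h1 : orderOf α ∣ 7 ^ k := orderOf_dvd_of_pow_eq_one hk
    exact Nat.Coprime.coprime_dvd_right h1 (Nat.Coprime.pow_right _ (by norm_num))
  obtain ⟨j, hj⟩ := exists_pow_eq_self_of_coprime hcop
  rw [← hj]
  exact Subgroup.pow_mem _ hβin _

theorem recep_top : sys.IsReceptive (⊤ : Subgroup Hs) := by
  refine ⟨le_top, ?_⟩
  intro P φ hφ hr
  have hP : Nat.card P = 343 := by rw [card_of_map hφ hr, card_top]
  have hP' : P = ⊤ := Subgroup.eq_top_of_card_eq P (by rw [hP, card_Hs])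
  subst hP'
  exact receptive_aux sys hφ le_top

/-- **The system is saturated.** -/
theorem isSaturated : sys.IsSaturated 7 := by
  intro P _
  have hd : Nat.card P ∣ 7 ^ 3 := by
    have := Subgroup.card_subgroup_dvd_card P
    rw [card_Hs] at this
    exact this
  obtain ⟨i, hi, hc⟩ := (Nat.dvd_prime_pow (by norm_num)).1 hd
  interval_cases i
  · have : P = ⊥ := Subgroup.eq_bot_of_card_eq P (by rw [hc]; norm_num)
    rw [this]
    exact sat_bot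
  · exact ⟨Zc, conj_Zc P (by rw [hc]; norm_num), auto_Zc, recep_Zc⟩
  · have h49 : Nat.card P = 49 := by rw [hc]; norm_num
    refine ⟨P, isConj_refl _ le_top, ?_, recep_pl h49⟩
    obtain ⟨p, q, hpq, rfl⟩ := eq_pl h49
    exact auto_pl hpq
  · have hP' : P = ⊤ := Subgroup.eq_top_of_card_eq P (by rw [hc, card_Hs]; norm_num)
    subst hP'
    exact ⟨⊤, isConj_refl _ le_top, auto_top, recep_top⟩

/-- **Any two nontrivial elements are conjugate in the system.** -/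
theorem conj_all (g h : Hs) (hg : g ≠ 1) (hh : h ≠ 1) :
    ∃ φ ∈ sys.Hom (Subgroup.zpowers g), φ ⟨g, Subgroup.mem_zpowers g⟩ = h := by
  have hcg : Nat.card (Subgroup.zpowers g) = 7 := by
    rw [Nat.card_zpowers, orderOf_eq_prime (pow_seven g) hg]
  have ho : orderOf g = 7 := orderOf_eq_prime (pow_seven g) hg
  have hoh : orderOf h = 7 := orderOf_eq_prime (pow_seven h) hh
  have hz1 : ∀ x : Subgroup.zpowers g, x ∈ Subgroup.zpowers (⟨g, Subgroup.mem_zpowers g⟩ : Subgroup.zpowers g) := by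
    rintro ⟨x, n, rfl⟩
    exact ⟨n, Subtype.ext rfl⟩
  have ho1 : orderOf h ∣ orderOf (⟨g, Subgroup.mem_zpowers g⟩ : Subgroup.zpowers g) := by
    rw [Subgroup.orderOf_mk, ho, hoh]
  have hval := monoidHomOfForallMemZpowers_apply_gen hz1 ho1
  refine ⟨monoidHomOfForallMemZpowers hz1 ho1, ⟨?_, good_of_card hcg _⟩, hval⟩
  rw [injective_iff_map_eq_one]
  rintro ⟨x, n, rfl⟩ hx
  have h1 : (⟨g ^ n, ⟨n, rfl⟩⟩ : Subgroup.zpowers g) = ⟨g, Subgroup.mem_zpowers g⟩ ^ n := rfl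
  change monoidHomOfForallMemZpowers hz1 ho1 ⟨g ^ n, ⟨n, rfl⟩⟩ = 1 at hx
  rw [h1, map_zpow, hval] at hx
  have h2 := orderOf_dvd_iff_zpow_eq_one.2 hx
  rw [hoh, ← ho] at h2
  exact Subtype.ext (orderOf_dvd_iff_zpow_eq_one.1 h2)

end Cfsg.Agent.H778.Seven
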